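import Cfsg.Agent.FG.PiClosed
import Cfsg.Agent.Invol.Basic
import Cfsg.Agent.Transfer.Frobenius

/-! Sylow 2-subgroups of class at most two under an odd operator group (ambient BG style):
`Cl2.Hy K A S` (every nontrivial `A`-invariant normal subgroup `T` of `S` has odd elements of `N_K(T)` centralizing `S`)
forces a normal 2-complement (`Cl2.Hy.npc`). Tools: `Cl2.frat` (Frattini for odd elements), `Cl2.le_of_odd`,
`Cl2.two`. -/

set_option autoImplicit false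

namespace Cfsg.Agent.Small.Cl2

open Subgroup Cfsg.Agent.BG

variable {G : Type*} [Group G] [Finite G] {K A S E H L R U V : Subgroup G} {a b c g s t x y z : G}

local notation "Y[" E "]" => omegaOne 2 Z[E]

local instance cl2FactTwo : Fact (Nat.Prime 2) := ⟨Nat.prime_two⟩

theorem frat (hL : L ⊴ H) (hR : SylowIn 2 R L) (h : ∀ x ∈ H, x ∈ N[R] → Odd (orderOf x) → x ∈ L)
    (hx : x ∈ H) (ox : Odd (orderOf x)) : x ∈ L := by
  obtain ⟨l, hl, n, hn, rfl⟩ := (mem_sup_norml (inf_le_left.trans hL.norm)).1 ((Frattini_arg hL hR).symm ▸ hx)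
  have nL := hL.norm hn.1
  have e : coset L (l * n) = constt {2} (coset L n) := by
    rw [coset_mul (normG L hl) nL, coset_id hl, one_mul, ← FG.coset_constt nL]
    conv_lhs => rw [← consttC {2} n, coset_mul (constt_mem _ nL) (constt_mem _ nL), coset_id
      (h _ (constt_mem _ hn.1) (constt_mem _ hn.2) (pnat_odd.1 (p_elt_constt _ _))), mul_one]
  refine (coset_eq_one (hL.norm hx)).1 (p_elt_eq_one (π := {2}) (e ▸ p_elt_constt _ _) ?_)
  exact pnat_odd.2 (ox.of_dvd_nat (orderOf_coset_dvd (hL.norm hx)))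

theorem le_of_odd (hS : SylowIn 2 S H) (hL : S ≤ L) (h : ∀ x ∈ H, Odd (orderOf x) → x ∈ L) : H ≤ L := by
  refine le_of_Sylow_le fun p hp _ => ?_
  by_cases e : p = 2
  · exact ⟨S, e ▸ hS, hL⟩
  have := Fact.mk hp
  obtain ⟨P, hP⟩ := Sylow_exists p H
  exact ⟨P, hP, fun x hx => h x (hP.le hx) (pnat_odd.1 (mem_p_elt (p'group_of_ne hP.pg e) hx))⟩

theorem two (le : S ≤ H) (sq : ∀ t ∈ S, t * t = 1) (hN : ∀ R ≤ S, R ≠ ⊥ → H ⊓ N[R] ≤ S) (ne : ¬ H ≤ S)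
    (hs : s ∈ S) (ht : t ∈ S) (s1 : s ≠ 1) (t1 : t ≠ 1) : s = t := by
  obtain ⟨g, hg, gS⟩ := SetLike.not_le_iff_exists.1 ne
  have cm : ∀ u ∈ S, ∀ v ∈ S, u * v = v * u := fun u hu v hv =>
    Invol.commute_of_mul_sq (sq u hu) (sq v hv) (sq _ (mul_mem hu hv))
  have cent : ∀ u ∈ S, u ≠ 1 → ∀ v ∈ H, v * u = u * v → v ∈ S := fun u hu u1 v hv e =>
    hN (zpowers u) (zpowers_le.2 hu) (by simpa using u1) ⟨hv, cent1_le_norm_zpowers u (mem_cent1.2 e)⟩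
  have key : ∀ g ∈ H, ∀ u ∈ S, u ≠ 1 → g * u * g⁻¹ ∈ S → g ∈ S := fun g hg u hu u1 e => by
    refine hN S le_rfl (trivgPn.2 ⟨u, hu, u1⟩) ⟨hg, mem_norm_of_cj_le fun w hw => ?_⟩
    obtain ⟨v, hv, rfl⟩ := mem_cj'.1 hw
    refine cent _ e (by simpa using u1) _ (mul_mem (mul_mem hg (le hv)) (inv_mem hg)) ?_
    calc g * v * g⁻¹ * (g * u * g⁻¹) = g * (v * u) * g⁻¹ := by group
      _ = _ := by rw [cm v hv u hu]; group
  have rH : g * s * g⁻¹ ∈ H := mul_mem (mul_mem hg (le hs)) (inv_mem hg)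
  have r2 : g * s * g⁻¹ * (g * s * g⁻¹) = 1 := by simp [sq s hs]
  rcases Nat.even_or_odd (orderOf (t * (g * s * g⁻¹))) with h | h
  · obtain ⟨o, c1, c2⟩ := Invol.half_pow_spec (sq t ht) r2 h
    have wS := cent t ht t1 _ (pow_mem (mul_mem (le ht) rH) _) c1
    exact absurd (key g hg s hs s1 (cent _ wS (Invol.ne_one_of o) _ rH c2.symm)) gS
  · obtain ⟨k, e⟩ := Invol.exists_conj_of_odd (sq t ht) r2 h
    have mH := zpow_mem (mul_mem (le ht) rH) k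
    generalize (t * (g * s * g⁻¹)) ^ k = m at e mH
    have e' : g⁻¹ * m * t * (g⁻¹ * m)⁻¹ = s := by
      calc _ = g⁻¹ * (m * t * m⁻¹) * g := by group
        _ = s := by rw [e]; group
    have := key _ (mul_mem (inv_mem hg) mH) t ht t1 (e' ▸ hs)
    rw [← e', cm _ this t ht, mul_inv_cancel_right]

omit [Finite G] in
theorem exists_stab (hU : H ≤ N[U]) (hV : H ≤ N[V]) :
    ∃ L, L ⊴ H ∧ ∀ g, g ∈ L ↔ g ∈ H ∧ ∀ u ∈ U, g * u * g⁻¹ * u⁻¹ ∈ V := by
  refine ⟨⟨⟨⟨{g | g ∈ H ∧ ∀ u ∈ U, g * u * g⁻¹ * u⁻¹ ∈ V}, fun {a b} ha hb => ⟨mul_mem ha.1 hb.1, fun u hu => ?_⟩⟩,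
    ⟨one_mem _, fun u _ => by simpa using one_mem V⟩⟩, fun {a} ha => ⟨inv_mem ha.1, fun u hu => ?_⟩⟩,
    ⟨fun g hg => hg.1, le_norm_iff.2 fun g hg k hk => ⟨mul_mem (mul_mem hg hk.1) (inv_mem hg), fun u hu => ?_⟩⟩,
    fun _ => Iff.rfl⟩
  · have := mul_mem (conj_mem_of_norm (hV ha.1) (hb.2 u hu)) (ha.2 u hu)
    convert this using 1; group
  · have := inv_mem (conj_mem_of_norm' (hV ha.1) (ha.2 u hu))
    convert this using 1; group
  · have := conj_mem_of_norm (hV hg) (hk.2 _ (conj_mem_of_norm' (hU hg) hu))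
    convert this using 1; group

omit [Finite G] in
theorem cm_mem (hx : x ∈ S) (hy : y ∈ S) : x * y * x⁻¹ * y⁻¹ ∈ S :=
  mul_mem (mul_mem (mul_mem hx hy) (inv_mem hx)) (inv_mem hy)

def Bad (K E : Subgroup G) : Prop :=
  IsPGroup 2 E ∧ E ≤ K ∧ ∃ x ∈ K, x ∈ N[E] ∧ Odd (orderOf x) ∧ x ∉ C[E]

omit [Finite G] in
theorem Bad.cj (h : Bad K E) (hg : g ∈ N[K]) : Bad K (cj g E) := by
  obtain ⟨h1, h2, x, h3, h4, h5, h6⟩ := h
  refine ⟨IsPGroup.cj h1 g, cj_le_of_norm hg h2, g * x * g⁻¹, conj_mem_of_norm hg h3, ?_, ?_, ?_⟩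
  · rw [N_cj]; exact conj_mem_cj g h4
  · rwa [BG.orderOf_conj']
  · rwa [C_cj, conj_mem_cj_iff]

structure Hy (K A S : Subgroup G) : Prop where
  syl : SylowIn 2 S K
  cls : ∀ x ∈ S, ∀ y ∈ S, x * y * x⁻¹ * y⁻¹ ∈ C[S]
  nK : A ≤ N[K]
  nS : A ≤ N[S]
  odd : Odd #A
  loc : ∀ T ≤ S, T ≠ ⊥ → S ≤ N[T] → A ≤ N[T] → ∀ x ∈ K, x ∈ N[T] → Odd (orderOf x) → x ∈ C[S]

structure Ess (K S E : Subgroup G) : Prop where
  bad : Bad K E
  max : ∀ R, Bad K R → #R ≤ #E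
  le : E ≤ S
  cent : Z[S] ≤ E

theorem good (max : ∀ R, Bad K R → #R ≤ #E) (lt : E < R) (h2 : IsPGroup 2 R) (hR : R ≤ K) (hx : x ∈ K)
    (nx : x ∈ N[R]) (ox : Odd (orderOf x)) : x ∈ C[R] := by
  by_contra h
  exact (proper_card lt).not_ge (max R ⟨h2, hR, x, hx, nx, ox, h⟩)

theorem exists_ess (hS : SylowIn 2 S K) (hE : Bad K E) : ∃ E, Ess K S E := by
  obtain ⟨E, hE, max⟩ := arg_max_exists (fun R => #R) hE
  obtain ⟨T, hT, ET⟩ := Sylow_superset (le_inf hE.2.1 (normG E)) hE.1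
  obtain ⟨g, hg, TS⟩ := Sylow_Jsub hS (hT.le.trans inf_le_left) hT.pg
  replace hT := pHallJ g hT
  rw [cj_inf, cj_of_mem hg, ← N_cj] at hT
  replace ET := cj_mono g ET
  replace hE := hE.cj (normG K hg)
  rw [← card_cj g E] at max
  generalize cj g E = E at hT ET hE max
  generalize cj g T = T at hT ET TS
  refine ⟨E, hE, max, ET.trans TS, fun z hz => ?_⟩
  have nL : E ⊔ (K ⊓ N[E] ⊓ C[E]) ⊴ K ⊓ N[E] :=
    NormalIn.sup ⟨le_inf hE.2.1 (normG E), inf_le_right⟩ (subcent_normal inf_le_right)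
  have hR := Sylow_setI_normal nL hT
  have zC : z ∈ C[E] := centS (ET.trans TS) hz.2
  have zH : z ∈ K ⊓ N[E] := ⟨hS.le hz.1, cent_sub E zC⟩
  have zT : z ∈ T := Hall_max hT (le_inf TS hT.le) inf_le_right (IsPGroup.pi (hS.pg.to_le inf_le_left)) ▸
    mem_inf.2 ⟨hz.1, zH⟩
  rcases (le_inf le_sup_left ET : E ≤ (E ⊔ (K ⊓ N[E] ⊓ C[E])) ⊓ T).eq_or_lt with e | lt
  · exact e ▸ mem_inf.2 ⟨mem_sup_right ⟨zH, zC⟩, zT⟩
  obtain ⟨h1, h2, x, h3, h4, h5, h6⟩ := hE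
  obtain ⟨u, hu, v, hv, rfl⟩ := (mem_sup_norml (inf_le_right.trans (cent_sub E))).1
    (frat nL hR (fun y hy ny oy => mem_sup_right ⟨hy, centS lt.le
      (good max lt hR.pg (hR.le.trans (nL.le.trans inf_le_left)) hy.1 ny oy)⟩) ⟨h3, h4⟩ h5)
  refine absurd ?_ h6
  rw [← constt_p_elt (pnat_odd.2 h5), consttM _ (mem_cent.1 hv.2 u hu),
    constt_p'_elt (by rw [compl_compl]; exact mem_p_elt (IsPGroup.pi h1) hu), one_mul]
  exact constt_mem _ hv.2

namespace Ess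

omit [Finite G] in
theorem cj (e : Ess K S E) (hK : g ∈ N[K]) (hS : g ∈ N[S]) : Ess K S (cj g E) :=
  ⟨e.bad.cj hK, by rw [card_cj]; exact e.max, cj_le_of_norm hS e.le, by
    rw [← cj_of_norm (norm_of_cj (F := fun A => Z[A]) (fun g A => by rw [cj_inf, C_cj]) S hS)]
    exact cj_mono g e.cent⟩

variable (e : Ess K S E) (h : Hy K A S)
include e h

omit [Finite G] in
theorem nE : S ≤ N[E] := le_norm_iff.2 fun s hs u hu => by
  have := mul_mem (e.cent ⟨cm_mem hs (e.le hu), h.cls s hs u (e.le hu)⟩) hu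
  rwa [inv_mul_cancel_right] at this

omit [Finite G] in
theorem SH : S ≤ K ⊓ N[E] := le_inf h.syl.le (e.nE h)

theorem syl : SylowIn 2 S (K ⊓ N[E]) := pHall_subl (e.SH h) inf_le_left h.syl

omit [Finite G] h in
theorem ne : E ≠ ⊥ := by
  obtain ⟨-, -, x, -, -, -, h6⟩ := e.bad
  rintro rfl
  simp at h6

theorem F (hL : L ⊴ K ⊓ N[E]) (SL : S ≤ L) (CL : K ⊓ N[E] ⊓ C[S] ≤ L) : K ⊓ N[E] ≤ L :=
  le_of_odd (e.syl h) SL fun _ => frat hL (pHall_subl SL hL.le (e.syl h)) fun y hy ny oy =>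
    CL ⟨hy, h.loc S le_rfl (fun e' => e.ne (eq_bot_iff.2 (e' ▸ e.le))) (normG S) h.nS y hy.1 ny oy⟩

theorem stab (hU : K ⊓ N[E] ≤ N[U]) (hV : K ⊓ N[E] ≤ N[V]) (US : U ≤ S)
    (hS : ∀ s ∈ S, ∀ u ∈ U, s * u * s⁻¹ * u⁻¹ ∈ V) (hg : g ∈ K ⊓ N[E]) (u : G) (hu : u ∈ U) :
    g * u * g⁻¹ * u⁻¹ ∈ V := by
  obtain ⟨L, hL, m⟩ := exists_stab hU hV
  refine ((m g).1 (e.F h hL (fun s hs => (m s).2 ⟨e.SH h hs, hS s hs⟩) (fun c hc => (m c).2 ⟨hc.1, fun u hu => ?_⟩)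
    hg)).2 u hu
  rw [conj_eq_of_cent hc.2 (US hu), mul_inv_cancel]
  exact one_mem V

theorem cen (hU : K ⊓ N[E] ≤ N[U]) (US : U ≤ Z[S]) : K ⊓ N[E] ≤ C[U] :=
  (e.F h (subcent_normal hU) (le_inf (e.SH h) (cents_symm (US.trans inf_le_right)))
    (inf_le_inf_left _ (centS (US.trans inf_le_left)))).trans inf_le_right

theorem cZ (hg : g ∈ K ⊓ N[E]) (u : G) (hu : u ∈ E) : g * u * g⁻¹ * u⁻¹ ∈ Z[E] :=
  e.stab h inf_le_right (norms_center inf_le_right) e.le (fun s hs u hu => ⟨e.cent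
    ⟨cm_mem hs (e.le hu), h.cls s hs u (e.le hu)⟩,
    centS e.le (h.cls s hs u (e.le hu))⟩) hg u hu

omit e h in
theorem cent_of (hU : IsPGroup 2 U) (ox : Odd (orderOf x)) (hx : x ∈ C[U])
    (hV : ∀ g ∈ zpowers x, ∀ u ∈ V, g * u * g⁻¹ * u⁻¹ ∈ U) : x ∈ C[V] := by
  refine zpowers_le.1 (stable_factor_cent (zpowers_le.2 hx) ?_ ?_)
  · rw [commGC]; exact commutator_le.2 hV
  · exact pnat_coprime (IsPGroup.pi hU) (p_elt_zpowers.2 (pnat_odd.2 ox))

theorem not_odd : ¬ ∀ x ∈ K ⊓ N[E], Odd (orderOf x) → x ∈ C[Y[E]] := fun hc => by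
  obtain ⟨h1, h2, x, h3, h4, h5, h6⟩ := e.bad
  have xH : zpowers x ≤ K ⊓ N[E] := zpowers_le.2 ⟨h3, h4⟩
  have pZ := h1.to_le (center_sub E)
  refine h6 (cent_of pZ h5 (zpowers_le.1 (coprime_abelian_faithful_Ohm1 pZ (norms_center (xH.trans inf_le_right))
    (pnat_coprime (IsPGroup.pi pZ) (p_elt_zpowers.2 (pnat_odd.2 h5))) (center_abelian E)
    (zpowers_le.2 (hc x ⟨h3, h4⟩ h5)))) fun g hg => e.cZ h (xH hg))

omit e h [Finite G] in
theorem memY : y ∈ Y[E] ↔ y ∈ Z[E] ∧ y * y = 1 := by rw [mem_Ohm1_abelian (center_abelian E), sq]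

omit e h [Finite G] in
theorem nY : K ⊓ N[E] ≤ N[Y[E]] := norms_Ohm 2 (norms_center inf_le_right)

omit e h [Finite G] in
theorem YE : Y[E] ≤ E := (Ohm_sub _ _).trans inf_le_left

omit e h [Finite G] in
theorem EY : E ≤ C[Y[E]] := centsS (Ohm_sub _ _) (le_cent_center E)

theorem cY (hs : s ∈ S) (hc : s ∈ C[Y[E]]) : s ∈ E := by
  have nL := subcent_normal (nY (K := K) (E := E))
  have hR := Sylow_setI_normal nL (e.syl h)
  rcases (le_inf (le_inf (e.le.trans (e.SH h)) EY) e.le : E ≤ K ⊓ N[E] ⊓ C[Y[E]] ⊓ S).eq_or_lt with e' | lt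
  · exact e' ▸ mem_inf.2 ⟨⟨e.SH h hs, hc⟩, hs⟩
  exact absurd (fun x hx ox => (frat nL hR (fun y hy ny oy => ⟨hy, centS (YE.trans lt.le)
    (good e.max lt hR.pg (inf_le_right.trans h.syl.le) hy.1 ny oy)⟩) hx ox).2) (e.not_odd h)

theorem sq (hs : s ∈ S) : s * s ∈ E := by
  refine e.cY h (mul_mem hs hs) (mem_cent.2 fun y hy => ?_)
  have yS := e.le (YE hy)
  have c1 := mem_cent.1 (h.cls s hs y yS)
  have y2 := (memY.1 hy).2
  generalize hz : s * y * s⁻¹ * y⁻¹ = z at c1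
  have e1 : s * y * s⁻¹ = z * y := by rw [← hz]; group
  have z2 : z * z = 1 := by
    have : z * y * (z * y) = 1 := by rw [← e1]; simp [y2]
    rwa [mul_assoc, ← mul_assoc y, c1 y yS, mul_assoc, y2, mul_one] at this
  refine (mul_inv_eq_iff_eq_mul.1 ?_).symm
  calc s * s * y * (s * s)⁻¹ = s * (s * y * s⁻¹) * s⁻¹ := by group
    _ = z * s * y * s⁻¹ := by rw [e1, ← mul_assoc s, c1 s hs]
    _ = y := by rw [mul_assoc z s, mul_assoc z, e1, ← mul_assoc, z2, one_mul]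

theorem idx (hs : s ∈ S) (ht : t ∈ S) (sE : s ∉ E) (tE : t ∉ E) : s * t ∈ E := by
  have nL := subcent_normal (nY (K := K) (E := E))
  have EL : E ≤ K ⊓ N[E] ⊓ C[Y[E]] := le_inf (e.le.trans (e.SH h)) EY
  have cL : ∀ s ∈ S, s ∈ K ⊓ N[E] ⊓ C[Y[E]] → s ∈ E := fun s hs h' => e.cY h hs h'.2
  have gL : ∀ R, E < R → R ≤ S → ∀ y ∈ K ⊓ N[E], y ∈ N[R] → Odd (orderOf y) → y ∈ K ⊓ N[E] ⊓ C[Y[E]] :=
    fun R lt le y hy ny oy => ⟨hy, centS (YE.trans lt.le)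
      (good e.max lt (h.syl.pg.to_le le) (le.trans h.syl.le) hy.1 ny oy)⟩
  have no : ¬ ∀ x ∈ K ⊓ N[E], Odd (orderOf x) → x ∈ K ⊓ N[E] ⊓ C[Y[E]] := fun h' =>
    e.not_odd h fun x hx ox => (h' x hx ox).2
  have syl := e.syl h
  generalize K ⊓ N[E] ⊓ C[Y[E]] = L at nL EL cL gL no
  generalize K ⊓ N[E] = H at nL gL no syl
  have SN := syl.le.trans nL.norm
  have sq' : ∀ t ∈ S /ᵍ L, t * t = 1 := fun t ht => by
    obtain ⟨t, ht', nt, rfl⟩ := mem_quotient_iff.1 ht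
    rw [← coset_mul nt nt, coset_id (EL (e.sq h ht'))]
  have := two (quotientS L syl.le) sq' (fun X hX X1 => ?_) (fun hle => no fun x hx ox => ?_)
    (mem_quotient (SN hs) hs) (mem_quotient (SN ht) ht)
    (fun e' => sE (cL s hs ((coset_eq_one (SN hs)).1 e'))) (fun e' => tE (cL t ht ((coset_eq_one (SN ht)).1 e')))
  · refine cL _ (mul_mem hs ht) ((coset_eq_one (SN (mul_mem hs ht))).1 ?_)
    rw [coset_mul (SN hs) (SN ht), this, sq' _ (mem_quotient (SN ht) ht)]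
  · have BS : coquo L X ≤ L ⊔ S := (cosetpreS hX).trans (quotientK SN).le
    have SB : S ≤ N[coquo L X] := norms_cosetpre SN (sub_abelian_norm (abelian_iff.2 (le_cent_iff.2 fun u hu v hv =>
      Invol.commute_of_mul_sq (sq' u hu) (sq' v hv) (sq' _ (mul_mem hu hv)))) hX)
    have nB : coquo L X ⊴ H ⊓ N[coquo L X] :=
      ⟨le_inf (BS.trans (sup_le nL.le syl.le)) (normG _), inf_le_right⟩
    have s' : SylowIn 2 S (H ⊓ N[coquo L X]) := pHall_subl (le_inf syl.le SB) inf_le_left syl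
    have hR := Sylow_setI_normal nB s'
    have lt : E < coquo L X ⊓ S := by
      refine (le_inf (EL.trans (sub_cosetpre X)) e.le).lt_of_ne fun e' => X1 ?_
      have := quotient_setIpre S X
      rwa [inf_comm, ← e', quotientS1 EL, inf_eq_right.2 hX, eq_comm] at this
    rw [← cosetpreK X, ← quotient_subnormG H (normal_cosetpre X), ← quotientYidl SN]
    refine quotientS L (le_of_odd s' le_sup_right fun x hx ox => BS (frat nB hR (fun y hy ny oy => ?_) hx ox))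
    exact sub_cosetpre X (gL _ lt inf_le_right y hy.1 ny oy)
  · have nx := nL.norm hx
    exact (coset_eq_one nx).1 (Invol.eq_one_of_odd_of_mul_self (ox.of_dvd_nat (orderOf_coset_dvd nx))
      (sq' _ (hle (mem_quotient nx hx))))

theorem cz (hy : y ∈ Y[E]) (yS : y ∉ C[S]) (hs : s ∈ S) : s * y = y * s ↔ s ∈ E := by
  refine ⟨fun c1 => by_contra fun sE => yS (mem_cent.2 fun t ht => ?_), fun hE => (mem_cent.1 (EY hE) y hy).symm⟩
  by_cases tE : t ∈ E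
  · exact (mem_cent.1 (EY tE) y hy).symm
  have := mem_cent.1 (EY (e.idx h hs ht sE tE)) y hy
  rw [← mul_assoc, ← c1, mul_assoc, mul_assoc] at this
  exact (mul_left_cancel this).symm

theorem ceq (hy : y ∈ Y[E]) (hs : s ∈ S) (ht : t ∈ S) (sE : s ∉ E) (tE : t ∉ E) :
    s * y * s⁻¹ = t * y * t⁻¹ := by
  have := conj_eq_of_cent (EY (e.idx h (inv_mem ht) hs (fun h' => tE (inv_mem_iff.1 h')) sE)) hy
  conv_rhs => rw [← this]
  group

theorem uniq {E2 E3 : Subgroup G} (e2 : Ess K S E2) (e3 : Ess K S E3) (hb : b ∈ Y[E2]) (bE : b ∉ E)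
    (hc : c ∈ Y[E3]) (cE : c ∉ E) : E2 = E3 := by
  have bS := e2.le (YE hb)
  have cS := e3.le (YE hc)
  obtain ⟨a, ha, aS⟩ : ∃ a ∈ Y[E], a ∉ C[S] := by
    by_contra! h'
    exact bE (e.cY h bS (cents_symm h' bS))
  have aS' := e.le (YE ha)
  have bC : b ∉ C[S] := fun h' => bE (e.cent ⟨bS, h'⟩)
  have cC : c ∉ C[S] := fun h' => cE (e.cent ⟨cS, h'⟩)
  have a2 : a ∉ E2 := fun h' => bE ((e.cz h ha aS bS).1 ((e2.cz h hb bC aS').2 h').symm)
  have a3 : a ∉ E3 := fun h' => cE ((e.cz h ha aS cS).1 ((e3.cz h hc cC aS').2 h').symm)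
  have zC := h.cls b bS a aS'
  have zS := cm_mem bS aS'
  have ez := e.ceq h ha cS bS cE bE
  generalize hz : b * a * b⁻¹ * a⁻¹ = z at zC zS
  have eb : a * b * a⁻¹ = z⁻¹ * b := by rw [← hz]; group
  have ec : a * c * a⁻¹ = z⁻¹ * c := by rw [← hz, ← ez]; group
  have nz : ¬ K ⊓ N[E] ≤ C1[z⁻¹] := fun hH => by
    have hH : K ⊓ N[E] ≤ C[zpowers z] := by rwa [← zpowers_inv, C_zpowers]
    refine e.not_odd h fun x hx ox => cent_of (h.syl.pg.to_le (zpowers_le.2 zS)) ox (hH hx) fun g hg =>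
      e.stab h nY (cents_norm hH) (YE.trans e.le) (fun s hs y hy => ?_) (zpowers_le.2 hx hg)
    have yS := e.le (YE hy)
    by_cases c1 : s * y = y * s
    · rw [c1]; simpa using one_mem _
    have yC : y ∉ C[S] := fun h' => c1 (mem_cent.1 h' s hs)
    have y2 : y ∉ E2 := fun h' => bE ((e.cz h hy yC bS).1 ((e2.cz h hb bC yS).2 h').symm)
    rw [e.ceq h hy hs bS (fun h' => c1 ((e.cz h hy yC hs).2 h')) bE]
    have := e2.ceq h hb yS aS' y2 a2
    have : b * y * b⁻¹ * y⁻¹ = z := by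
      calc _ = b * (y * b * y⁻¹)⁻¹ := by group
        _ = z := by rw [this, ← hz]; group
    exact this ▸ mem_zpowers z
  have cm := mem_cent.1 (inv_mem zC)
  have b2 := (memY.1 hb).2
  have c2 := (memY.1 hc).2
  have z2 : z⁻¹ * z⁻¹ = 1 := by
    have : z⁻¹ * b * (z⁻¹ * b) = 1 := by rw [← eb]; simp [b2]
    rwa [mul_assoc, ← mul_assoc b, cm b bS, mul_assoc, b2, mul_one] at this
  have cb : ∀ s ∈ S, s * b * s⁻¹ = b ∨ s * b * s⁻¹ = z⁻¹ * b := fun s hs => by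
    by_cases h' : s ∈ E2
    · exact .inl (conj_eq_of_cent (EY h') hb)
    · exact .inr ((e2.ceq h hb hs aS' h' a2).trans eb)
  have cc : ∀ s ∈ S, s * c * s⁻¹ = c ∨ s * c * s⁻¹ = z⁻¹ * c := fun s hs => by
    by_cases h' : s ∈ E3
    · exact .inl (conj_eq_of_cent (EY h') hc)
    · exact .inr ((e3.ceq h hc hs aS' h' a3).trans ec)
  have dE := e.idx h bS cS bE cE
  have dZ : b * c ∈ Z[E] := by
    refine ⟨dE, mem_cent.2 fun s hs => by_contra fun ne => nz ((e.cen h (norms_der inf_le_right)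
      (commutator_le.2 fun u hu v hv => ⟨cm_mem (e.le hu) (e.le hv),
        h.cls u (e.le hu) v (e.le hv)⟩)).trans (cent_le_cent1 ?_))⟩
    have : s * (b * c) * s⁻¹ = z⁻¹ * (b * c) := by
      have e0 : s * (b * c) * s⁻¹ = (s * b * s⁻¹) * (s * c * s⁻¹) := by group
      rcases cb s (e.le hs) with e1 | e1 <;> rcases cc s (e.le hs) with e2 | e2 <;> rw [e1, e2] at e0
      · exact absurd (mul_inv_eq_iff_eq_mul.1 e0) ne
      · rw [e0, ← mul_assoc, cm b bS, mul_assoc]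
      · rw [e0, mul_assoc]
      · rw [mul_assoc z⁻¹, ← mul_assoc b z⁻¹, cm b bS, mul_assoc z⁻¹, ← mul_assoc z⁻¹, z2, one_mul] at e0
        exact absurd (mul_inv_eq_iff_eq_mul.1 e0) ne
    have := commutator_mem_commutator hs dE
    rwa [commutatorElement_def, ‹s * (b * c) * s⁻¹ = _›, mul_inv_cancel_right] at this
  have bc : b * c = c * b := by
    rcases cc b bS with e1 | e1
    · exact mul_inv_eq_iff_eq_mul.1 e1
    refine absurd ((e.cen h (U := closure {w | ∃ y ∈ Z[E], y * y = w}) (norms_closure ?_)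
      ((closure_le _).2 ?_)).trans (cent_le_cent1 (subset_closure ⟨_, dZ, ?_⟩))) nz
    · rintro g hg _ ⟨y, hy, rfl⟩
      exact ⟨_, conj_mem_of_norm (norms_center inf_le_right hg) hy, by group⟩
    · rintro _ ⟨y, hy, rfl⟩
      have yS := e.le hy.1
      refine ⟨mul_mem yS yS, mem_cent.2 fun s hs => ?_⟩
      have c1 := mem_cent.1 (h.cls s hs y yS)
      have c2 := mem_cent.1 hy.2 _ (e.sq h hs)
      generalize hw : s * y * s⁻¹ * y⁻¹ = w at c1
      have e1 : s * y * s⁻¹ = w * y := by rw [← hw]; group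
      have w2 : w * w = 1 := by
        have : w * w * y = y := by
          calc w * w * y = s * (s * y * s⁻¹) * s⁻¹ := by
                rw [e1, ← mul_assoc s, c1 s hs, mul_assoc w s, mul_assoc w (s * y), e1, mul_assoc]
            _ = s * s * y * (s * s)⁻¹ := by group
            _ = y := by rw [c2, mul_inv_cancel_right]
        exact mul_eq_right.1 this
      refine mul_inv_eq_iff_eq_mul.1 ?_
      calc s * (y * y) * s⁻¹ = (s * y * s⁻¹) * (s * y * s⁻¹) := by group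
        _ = _ := by rw [e1, mul_assoc, ← mul_assoc y, c1 y yS, mul_assoc, ← mul_assoc w, w2, one_mul]
    · calc b * c * (b * c) = b * c * b⁻¹ * c := by rw [Invol.inv_eq_of_mul_self b2]; group
        _ = _ := by rw [e1, mul_assoc, c2, mul_one]
  have dC : b * c ∈ C[S] := by_contra fun h' => bE ((e.cz h (memY.2 ⟨dZ, by
    rw [mul_assoc, ← mul_assoc c, ← bc, mul_assoc, c2, mul_one, b2]⟩) h' bS).1 (by rw [mul_assoc, ← bc]))
  have key : ∀ s ∈ S, s * b = b * s ↔ s * c = c * s := fun s hs => by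
    have := mem_cent.1 dC s hs
    refine ⟨fun h' => ?_, fun h' => ?_⟩
    · rw [← mul_assoc, h', mul_assoc, mul_assoc] at this
      exact mul_left_cancel this
    · rw [mul_assoc, ← h', ← mul_assoc, ← mul_assoc] at this
      exact mul_right_cancel this
  ext s
  exact ⟨fun hs => (e3.cz h hc cC (e2.le hs)).1 ((key s (e2.le hs)).1 ((e2.cz h hb bC (e2.le hs)).2 hs)),
    fun hs => (e2.cz h hb bC (e3.le hs)).1 ((key s (e3.le hs)).2 ((e3.cz h hc cC (e3.le hs)).2 hs))⟩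

theorem false : False := by
  have Yj : ∀ g, Y[BG.cj g E] = BG.cj g Y[E] := fun g => by rw [← OhmJ, cj_inf, C_cj]
  have all : ∀ a ∈ A, BG.cj a Y[E] ≤ E := fun a ha b hb => by_contra fun bE => by
    have ea := e.cj (h.nK ha) (h.nS ha)
    have bS := ea.le (YE (Yj a ▸ hb))
    obtain ⟨y, hy, ne⟩ : ∃ y ∈ Y[E], y * b ≠ b * y := by
      by_contra! h'
      exact bE (e.cY h bS (mem_cent.2 h'))
    have e' := ea.uniq h e (e.cj (h.nK (mul_mem ha ha)) (h.nS (mul_mem ha ha))) hy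
      (fun h' => ne (mem_cent.1 (EY h') b (Yj a ▸ hb)).symm)
      (by rw [Yj, cj_mul]; exact conj_mem_cj a hb) (by rwa [conj_mem_cj_iff])
    obtain ⟨k, hk⟩ := Invol.exists_sq_pow_eq_of_odd (Invol.odd_orderOf_of_mem h.odd ha)
    have : a ∈ N[E] := hk ▸ pow_mem (mem_norm.2 e'.symm) k
    rw [← Yj, cj_of_norm this] at hb
    exact bE (YE hb)
  obtain ⟨W, hW⟩ : ∃ W, W = sSup {X | ∃ a ∈ A, BG.cj a Y[E] = X} := ⟨_, rfl⟩
  have YW : Y[E] ≤ W := hW ▸ le_sSup ⟨1, one_mem A, cj_one _⟩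
  have WE : W ≤ E := hW ▸ sSup_le (by rintro _ ⟨a, ha, rfl⟩; exact all a ha)
  have HW : K ⊓ N[E] ≤ N[W] := by
    refine le_norm_of_cj_le fun g hg => cj_le_iff.2 ?_
    conv_lhs => rw [hW]
    refine sSup_le ?_
    rintro _ ⟨a, ha, rfl⟩ w hw
    have wW : w ∈ W := hW ▸ (le_sSup (s := {X | ∃ a ∈ A, BG.cj a Y[E] = X}) ⟨a, ha, rfl⟩ : _ ≤ _) hw
    have w2 := (memY.1 (Yj a ▸ hw)).2
    have zZ := e.cZ h hg w (WE wW)
    rw [mem_cj_inv, ← inv_mul_cancel_right (g * w * g⁻¹) w]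
    refine mul_mem (YW (memY.2 ⟨zZ, ?_⟩)) wW
    have c1 := mem_cent.1 zZ.2 w (WE wW)
    generalize hz : g * w * g⁻¹ * w⁻¹ = z at c1
    have e1 : g * w * g⁻¹ = z * w := by rw [← hz]; group
    have : z * w * (z * w) = 1 := by rw [← e1]; simp [w2]
    rwa [mul_assoc, ← mul_assoc w, c1, mul_assoc, w2, mul_one] at this
  obtain ⟨h1, h2, x, h3, h4, h5, h6⟩ := e.bad
  refine h6 (centS e.le (h.loc W (WE.trans e.le) (fun e' => e.not_odd h fun x _ _ => ?_) ((e.SH h).trans HW) ?_ x h3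
    (HW ⟨h3, h4⟩) h5))
  · rw [eq_bot_iff.2 (YW.trans e'.le), cent_bot]; trivial
  · rw [hW]
    refine norms_sSup_of_perm ?_
    rintro g hg _ ⟨a, ha, rfl⟩
    exact ⟨g * a, mul_mem hg ha, cj_mul _ _ _⟩

end Ess

theorem Hy.npc (h : Hy K A S) : HasNormalPComplement 2 K := by
  refine Transfer.hasNormalPComplement_of_forall_isPGroup fun Q hQ _ g hg co => by_contra fun hc => ?_
  obtain ⟨E, e⟩ := exists_ess h.syl (E := Q.map K.subtype) ⟨hQ.map _, map_subtype_le Q, g, g.2,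
    norms_map K.subtype (le_refl N[Q]) (mem_map_of_mem _ hg), by
      rw [orderOf_coe]; exact Nat.coprime_two_right.1 co, fun h' => hc (mem_cent.2 fun u hu =>
        Subtype.ext (mem_cent.1 h' _ (mem_map_of_mem K.subtype hu)))⟩
  exact e.false h

end Cfsg.Agent.Small.Cl2
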