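import Cfsg.Agent.BG.Base5
import Cfsg.Agent.PGrp.ES
import Cfsg.Agent.Classical.DicksonSL
import Cfsg.Agent.Classical.PGL2Subf

/-! Extraspecial Sylow subgroups of order `p³` (helper9): `X3 p P z`; if a noncentral `y ∈ P` is fused into `Z(P)`, then
`N(P)` contains elements acting as `z ↦ z^a`, `y ↦ y^{1/a}` (`X3.torus`); coordinates on `P/Z(P)` (`coord`); the bound on `p`
from Dickson's theorem (`X3.bound`). -/
set_option linter.unusedSectionVars false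
namespace Cfsg.Agent.Small
open Subgroup BG PGrp Cfsg.Agent.Classical
open scoped commutatorElement MatrixGroups Matrix

variable {G : Type*} [Group G] [Finite G] {p : ℕ} [hp : Fact p.Prime] {P : Subgroup G} {z y c g : G}

/-- `P` is an extraspecial Sylow subgroup of order `p³` with centre `⟨z⟩`. -/
structure X3 (p : ℕ) (P : Subgroup G) (z : G) : Prop where
  syl : SylowIn p P ⊤
  card : #P = p ^ 3
  mem : z ∈ P
  es : IsES p (⟨z, mem⟩ : P)
  cen : center P = zpowers (⟨z, mem⟩ : P)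

theorem X3.of (P : Sylow p G) (hE : IsExtraspecial p P) (hc : Nat.card P = p ^ 3) : ∃ z, X3 p (P : Subgroup G) z := by
  obtain ⟨z, h1, h2⟩ := exists_isES hE
  exact ⟨z, sylowIn_top P, hc, z.2, h1, h2⟩

theorem mem_zp {x z : P} : x ∈ zpowers z ↔ (x : G) ∈ zpowers (z : G) :=
  ⟨fun ⟨k, h⟩ => ⟨k, by simp [← h]⟩, fun ⟨k, h⟩ => ⟨k, Subtype.ext (by simpa using h)⟩⟩

namespace X3

theorem ord (h : X3 p P z) : orderOf z = p := by rw [← h.es.ord, ← orderOf_coe]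
theorem zle (h : X3 p P z) : zpowers z ≤ P := zpowers_le.2 h.mem
theorem com (h : X3 p P z) (hc : c ∈ zpowers z) (hy : y ∈ P) : Commute c y :=
  show c * y = y * c from congrArg Subtype.val (h.es.commute_of_mem (x := ⟨c, h.zle hc⟩) (mem_zp.2 hc) ⟨y, hy⟩).eq
theorem gen (h : X3 p P z) (hc : c ∈ zpowers z) (h1 : c ≠ 1) : zpowers c = zpowers z :=
  eq_of_le_of_card_ge (zpowers_le.2 hc) (by
    rw [Nat.card_zpowers, Nat.card_zpowers, h.ord, orderOf_eq_prime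
      (congrArg Subtype.val (h.es.pow_eq_one (x := ⟨c, h.zle hc⟩) (mem_zp.2 hc))) h1])
theorem map_center (h : X3 p P z) : (center P).map P.subtype = zpowers z := by
  rw [h.cen, MonoidHom.map_zpowers]; rfl

theorem shift (h : X3 p P z) (hy : y ∈ P) (hn : y ∉ zpowers z) (hc : c ∈ zpowers z) :
    ∃ u ∈ P, u * y * u⁻¹ = y * c := by
  obtain ⟨x, xP, hx⟩ : ∃ x ∈ P, ⁅x, y⁆ ≠ 1 := by
    by_contra! c
    exact hn (mem_zp.1 (h.cen ▸ mem_center_iff.2 fun x =>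
      Subtype.ext (commutatorElement_eq_one_iff_mul_comm.1 (c x x.2)) : (⟨y, hy⟩ : P) ∈ zpowers _))
  have hd : ⁅x, y⁆ ∈ zpowers z := mem_zp.1 (h.es.comm ⟨x, xP⟩ ⟨y, hy⟩)
  obtain ⟨m, hm⟩ := mem_powers_iff_mem_zpowers.2 (h.gen hd hx ▸ hc)
  refine ⟨x ^ m, pow_mem xP m, ?_⟩
  rw [← hm]
  clear hm
  induction m with
  | zero => simp
  | succ m ih =>
    have e : x * y * x⁻¹ = y * ⁅x, y⁆ := by
      rw [← (h.com hd hy).eq, commutatorElement_def]; group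
    calc x ^ (m + 1) * y * (x ^ (m + 1))⁻¹ = x * (x ^ m * y * (x ^ m)⁻¹) * x⁻¹ := by rw [pow_succ']; group
    _ = x * y * x⁻¹ * (x * ⁅x, y⁆ ^ m * x⁻¹) := by rw [ih]; group
    _ = y * ⁅x, y⁆ ^ (m + 1) := by
      rw [e, ← (h.com (pow_mem hd m) xP).eq, mul_inv_cancel_right, pow_succ', mul_assoc]

theorem torus (h : X3 p P z) (hy : y ∈ P) (hn : y ∉ zpowers z) (hg : g * y * g⁻¹ ∈ zpowers z) {a b : ℤ}
    (hab : (p : ℤ) ∣ a * b - 1) : ∃ t ∈ N[P], t * z * t⁻¹ = z ^ a ∧ ∃ d ∈ zpowers z, t * y * t⁻¹ = y ^ b * d := by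
  have y1 : g * y * g⁻¹ ≠ 1 := fun e => hn (by rw [conj_eq_one_iff.1 e]; exact one_mem _)
  have zy := h.com (mem_zpowers z) hy
  have oy : orderOf y = p := by
    rw [← (MulAut.conj g).orderOf_eq y, ← Nat.card_zpowers, MulAut.conj_apply, h.gen hg y1, Nat.card_zpowers, h.ord]
  have pz : IsPGroup p (zpowers z) := h.syl.pg.to_le h.zle
  obtain ⟨k, hk, hk'⟩ := Sylow_Jsub (M := C1[g * y * g⁻¹])
    (pHall_subl (fun x hx => mem_cent1.2 (h.com hg hx).symm) le_top h.syl) (Q := cj g (zpowers z))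
    (by rw [C1_conj]; exact map_mono (zpowers_le.2 (mem_cent1.2 zy))) (pz.map _)
  obtain ⟨f, f1, f2⟩ : ∃ f, f * y * f⁻¹ ∈ zpowers z ∧ f * z * f⁻¹ ∈ P :=
    ⟨k * g, by rw [show k * g * y * (k * g)⁻¹ = k * (g * y * g⁻¹) * k⁻¹ by group, mem_cent1.1 hk,
      mul_inv_cancel_right]; exact hg, hk' (by rw [← cj_mul]; exact mem_cj.2 (by simp [mul_assoc]))⟩
  have f3 : f * z * f⁻¹ ∉ zpowers z := fun c => by
    have e := h.gen f1 fun e => hn (by rw [conj_eq_one_iff.1 e]; exact one_mem _)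
    obtain ⟨j, hj⟩ := (e ▸ c : f * z * f⁻¹ ∈ zpowers (f * y * f⁻¹))
    have : y ^ j = z := by simpa using hj
    exact hn ((eq_of_le_of_card_ge (zpowers_le.2 ⟨j, this⟩ : zpowers z ≤ zpowers y)
      (by rw [Nat.card_zpowers, Nat.card_zpowers, oy, h.ord])).ge (mem_zpowers y))
  have hw : ∀ a b : ℤ, (p : ℤ) ∣ a * b - 1 → ∃ w : G, MulAut.conj w z = y ^ (-b) ∧ MulAut.conj w y = z ^ a := by
    intro a b hab
    obtain ⟨u, hu, u1⟩ := h.shift hy hn (zpow_mem (mem_zpowers z) a)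
    obtain ⟨v, hv, v1⟩ := h.shift f2 f3 (zpow_mem f1 (-b))
    have u2 : MulAut.conj u z = z := by simp [← (h.com (mem_zpowers z) hu).eq]
    have u3 : MulAut.conj u y = y * z ^ a := u1
    have v2 : MulAut.conj (f⁻¹ * v * f) z = z * y ^ (-b) := by
      rw [MulAut.conj_apply, show f⁻¹ * v * f * z * (f⁻¹ * v * f)⁻¹ = f⁻¹ * (v * (f * z * f⁻¹) * v⁻¹) * f by group, v1,
        conj_zpow]; group
    have v3 : MulAut.conj (f⁻¹ * v * f) y = y := by
      rw [MulAut.conj_apply, show f⁻¹ * v * f * y * (f⁻¹ * v * f)⁻¹ = f⁻¹ * (v * (f * y * f⁻¹) * v⁻¹) * f by group,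
        ← (h.com f1 hv).eq]; group
    have z1 : z ^ (a * b - 1) = 1 := orderOf_dvd_iff_zpow_eq_one.1 (h.ord ▸ hab)
    have z2 : y ^ (a * b - 1) = 1 := orderOf_dvd_iff_zpow_eq_one.1 (oy ▸ hab)
    refine ⟨u * (f⁻¹ * v * f) * u, ?_, ?_⟩
    · rw [map_mul, map_mul, MulAut.mul_apply, MulAut.mul_apply, u2, v2, map_mul, map_zpow, u2, u3,
        (zy.symm.zpow_right a).mul_zpow, ← zpow_mul, ← mul_assoc, (zy.zpow_right _).eq, mul_assoc, ← zpow_one_add,
        show 1 + a * -b = -(a * b - 1) by ring, zpow_neg z, z1, inv_one, mul_one]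
    · rw [map_mul, map_mul, MulAut.mul_apply, MulAut.mul_apply, u3, map_mul, map_zpow, v2, v3,
        (zy.zpow_right _).mul_zpow, ← zpow_mul, ← mul_assoc, (zy.symm.zpow_right _).eq, mul_assoc, ← zpow_one_add,
        show 1 + -b * a = -(a * b - 1) by ring, zpow_neg y, z2, inv_one, mul_one, map_zpow, u2]
  obtain ⟨w, w1, w2⟩ := hw a b hab
  obtain ⟨w', w3, w4⟩ := hw (-1) (-1) (by simp)
  have t1 : MulAut.conj (w * w') z = z ^ a := by rw [map_mul, MulAut.mul_apply, w3, map_zpow, w2]; simp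
  have t2 : MulAut.conj (w * w') y = y ^ b := by rw [map_mul, MulAut.mul_apply, w4, map_zpow, w1]; simp
  let M : Subgroup G :=
    { carrier := {m | MulAut.conj m z = z ∧ ∃ i : ℤ, MulAut.conj m y = y * z ^ i}
      one_mem' := ⟨by simp, 0, by simp⟩
      mul_mem' := by
        rintro m n ⟨m1, i, m2⟩ ⟨n1, j, n2⟩
        exact ⟨by rw [map_mul, MulAut.mul_apply, n1, m1], i + j, by
          rw [map_mul, MulAut.mul_apply, n2, map_mul, map_zpow, m1, m2, mul_assoc, zpow_add]⟩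
      inv_mem' := by
        rintro m ⟨m1, i, m2⟩
        have m3 : MulAut.conj m⁻¹ z = z := by rw [map_inv, MulAut.inv_apply, MulEquiv.symm_apply_eq, m1]
        exact ⟨m3, -i, by
          rw [map_inv, MulAut.inv_apply, MulEquiv.symm_apply_eq, map_mul, map_zpow, m1, m2]; group⟩ }
  have PM : P ≤ M := fun x hx => ⟨by simp [← (h.com (mem_zpowers z) hx).eq], by
    obtain ⟨i, hi⟩ : ⁅y⁻¹, x⁆ ∈ zpowers z := mem_zp.1 (h.es.comm ⟨y⁻¹, inv_mem hy⟩ ⟨x, hx⟩)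
    exact ⟨i, by rw [show z ^ i = _ from hi]; simp [commutatorElement_def, mul_assoc]⟩⟩
  have z1 : z ^ (a * b) = z := by
    rw [show a * b = a * b - 1 + 1 by ring, zpow_add_one, orderOf_dvd_iff_zpow_eq_one.1 (h.ord ▸ hab), one_mul]
  have z2 : y ^ (b * a) = y := by
    rw [show b * a = a * b - 1 + 1 by ring, zpow_add_one, orderOf_dvd_iff_zpow_eq_one.1 (oy ▸ hab), one_mul]
  have t3 : (MulAut.conj (w * w'))⁻¹ z = z ^ b := by
    rw [MulAut.inv_apply, MulEquiv.symm_apply_eq, map_zpow, t1, ← zpow_mul, z1]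
  have t4 : (MulAut.conj (w * w'))⁻¹ y = y ^ a := by
    rw [MulAut.inv_apply, MulEquiv.symm_apply_eq, map_zpow, t2, ← zpow_mul, z2]
  have tM : cj (w * w') P ≤ M := by
    rintro _ ⟨x, hx, rfl⟩
    obtain ⟨m1, i, m2⟩ := PM hx
    refine ⟨?_, a * (i * a), ?_⟩ <;>
      simp only [MulEquiv.coe_toMonoidHom, MulAut.conj_apply (w * w') x, map_mul _ _ (w * w')⁻¹, map_mul _ _ x, map_inv,
        MulAut.mul_apply]
    · rw [t3, map_zpow, m1, map_zpow, t1, ← zpow_mul, z1]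
    · rw [t4, map_zpow, m2, (zy.symm.zpow_right i).mul_zpow, map_mul, ← zpow_mul, map_zpow, map_zpow, t1, t2,
        ← zpow_mul, ← zpow_mul, z2]
  obtain ⟨m, ⟨m1, i, m2⟩, hm⟩ := Sylow_Jsub (pHall_subl PM le_top h.syl) tM (h.syl.pg.map _)
  rw [← cj_mul] at hm
  refine ⟨m * (w * w'), mem_norm_of_cj_le hm, ?_, z ^ (i * b), ⟨_, rfl⟩, ?_⟩
  · rw [← MulAut.conj_apply, map_mul, MulAut.mul_apply, t1, map_zpow, m1]
  · rw [← MulAut.conj_apply, map_mul, MulAut.mul_apply, t2, map_zpow, m2, (zy.symm.zpow_right i).mul_zpow, zpow_mul]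

end X3

theorem coord {S : Type*} [Group S] [Finite S] {z : S} (h : IsES p z) (hZ : center S = zpowers z)
    (hc : Nat.card S = p ^ 3) : ∃ (c : S → Fin 2 → ZMod p) (ρ : MulAut S →* GL (Fin 2) (ZMod p)),
      (∀ x y, c (x * y) = c x + c y) ∧ (∀ x (n : ℤ), c (x ^ n) = (n : ZMod p) • c x) ∧ Function.Surjective c ∧
      (∀ x, c x = 0 ↔ x ∈ zpowers z) ∧ (∀ α x, (ρ α).1 *ᵥ c x = c (α x)) ∧
      ∀ α (k : ℤ), α z = z ^ k → (ρ α).1.det = k := by
  let b := Module.finBasisOfFinrankEq (ZMod p) h.V (h.finrank_eq hc)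
  have hz : ∀ α : MulAut S, ∀ x ∈ zpowers z, α x ∈ zpowers z := fun α x hx => hZ ▸ mem_center_iff.2 fun g => by
    obtain ⟨g, rfl⟩ := α.surjective g
    rw [← map_mul, ← map_mul, (h.commute_of_mem hx g).eq]
  have e : ∀ (α : MulAut S) x, h.π (α (h.out (h.π x))) = h.π (α x) := fun α x => by
    obtain ⟨u, hu, e⟩ := h.exists_out x
    rw [e, map_mul, h.mk_mul, h.mk_eq_zero.2 (hz α u hu), add_zero]
  let f : MulAut S → Module.End (ZMod p) h.V := fun α =>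
    (AddMonoidHom.mk' (fun v => h.π (α (h.out v))) fun v w => by
      obtain ⟨x, rfl⟩ := h.mk_surjective v
      obtain ⟨y, rfl⟩ := h.mk_surjective w
      rw [← h.mk_mul, e, e, e, map_mul, h.mk_mul]).toZModLinearMap p
  have hf : ∀ α x, f α (h.π x) = h.π (α x) := e
  let F : MulAut S →* Module.End (ZMod p) h.V :=
    { toFun := f
      map_one' := LinearMap.ext fun v => by obtain ⟨x, rfl⟩ := h.mk_surjective v; exact hf 1 x
      map_mul' := fun α β => LinearMap.ext fun v => by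
        obtain ⟨x, rfl⟩ := h.mk_surjective v
        rw [Module.End.mul_apply, hf, hf, hf, MulAut.mul_apply] }
  refine ⟨fun x => b.repr (h.π x), ((LinearMap.toMatrixAlgEquiv b : _ →* _).comp F).toHomUnits,
    fun x y => by simp [h.mk_mul], fun x n => by simp [h.mk_zpow, ← Int.cast_smul_eq_zsmul (ZMod p)], fun v => ?_,
    fun x => by rw [← h.mk_eq_zero]; simp, fun α x => ?_, fun α k hk => ?_⟩
  · obtain ⟨x, hx⟩ := h.mk_surjective (b.equivFun.symm v)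
    exact ⟨x, by beta_reduce; rw [hx]; exact b.equivFun.apply_symm_apply v⟩
  · exact (LinearMap.toMatrix_mulVec_repr b b (f α) _).trans (by rw [hf])
  · change (LinearMap.toMatrix b b (f α)).det = k
    have sk : h.B (b 1) (b 0) = -h.B (b 0) (b 1) := (h.isAlt.neg_eq _ _).symm
    have h0 : h.B (b 0) (b 1) ≠ 0 := fun h0 => by
      have h1 : h.B = 0 := LinearMap.BilinForm.ext_basis b fun i j => by
        fin_cases i <;> fin_cases j <;> simp [h.isAlt.self_eq_zero, h0, sk]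
      have h2 : center S = ⊤ := eq_top_iff.2 fun x _ => h.mem_center_iff.2 fun v => by simp [h1]
      have := h.card_zpowers
      rw [← hZ, h2, card_top, hc] at this
      exact absurd ((Nat.pow_eq_self_iff hp.1.one_lt).1 this) (by norm_num)
    have h1 : h.B (f α (b 0)) (f α (b 1)) = k * h.B (b 0) (b 1) := h.ez_injective (by
      obtain ⟨x, hx⟩ := h.mk_surjective (b 0)
      obtain ⟨y, hy⟩ := h.mk_surjective (b 1)
      obtain ⟨n, hn⟩ := ZMod.natCast_zmod_surjective (h.B (b 0) (b 1))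
      rw [← hx, ← hy, hf, hf, h.ez_B, ← map_commutatorElement, ← h.ez_B, hx, hy, ← hn, h.ez_natCast, map_pow, hk,
        mul_comm, ← nsmul_eq_mul, h.ez_nsmul]
      congr 1
      obtain ⟨m, rfl | rfl⟩ := k.eq_nat_or_neg <;> simp [h.ez_natCast, h.ez_neg])
    rw [← b.sum_repr (f α (b 0)), ← b.sum_repr (f α (b 1))] at h1
    simp only [Fin.sum_univ_two, map_add, map_smul, LinearMap.add_apply, LinearMap.smul_apply, h.isAlt.self_eq_zero,
      sk, smul_eq_mul] at h1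
    refine mul_right_cancel₀ h0 ?_
    rw [← h1, Matrix.det_fin_two]
    simp only [LinearMap.toMatrix_apply]
    ring

theorem proj {X : Subgroup PGL(2, ZMod p)} (hX : ¬ p ∣ Nat.card X) {T : Set (P1 (ZMod p))}
    (hT : ∀ L ∈ T, ∃ t ∈ X, t • L = L ∧ ∀ j, t ^ j = 1 → p - 1 ∣ 3 * j) {L₁ L₂ L₃ : P1 (ZMod p)} (h1 : L₁ ∈ T)
    (h2 : L₂ ∈ T) (h3 : L₃ ∈ T) (h12 : L₁ ≠ L₂) (h13 : L₁ ≠ L₃) (h23 : L₂ ≠ L₃) : p ≤ 7 ∨ p = 13 ∧ T.ncard ≤ 12 := by
  refine or_iff_not_imp_left.2 fun h7 => ?_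
  have po := hp.1.eq_two_or_odd
  have p9 : p ≠ 9 := fun e => absurd (e ▸ hp.1) (by norm_num)
  choose! t tX tL tj using hT
  have le : ∀ L ∈ T, ∀ j, 0 < j → t L ^ j = 1 → p - 1 ≤ 3 * j := fun L hL j hj e =>
    Nat.le_of_dvd (by omega) (tj L hL j e)
  have t2 : ∀ L ∈ T, t L ^ 2 ≠ 1 := fun L hL e => by have := le L hL 2 two_pos e; omega
  have t3 : ∀ L ∈ T, t L ^ 3 ≠ 1 := fun L hL e => by have := le L hL 3 three_pos e; omega
  have nc : ¬ ∀ L ∈ T, Commute (t L₁) (t L) := fun hc => by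
    have : ∀ L ∈ T, (t L₁ ^ 2) • L = L := fun L hL => by
      have fx : ∀ k : ℕ, t L • (t L₁ ^ k • L) = t L₁ ^ k • L := fun k => by
        rw [← mul_smul, ← ((hc L hL).pow_left k).eq, mul_smul, tL L hL]
      by_contra c
      have c1 : t L₁ ^ 1 • L ≠ L := fun e => c (by rw [pow_one] at e; rw [sq, mul_smul, e, e])
      have c2 : t L₁ ^ 1 • L ≠ t L₁ ^ 2 • L := fun e => c1 (by
        rw [pow_one] at e ⊢
        rw [sq, mul_smul] at e
        exact (MulAction.injective _ e).symm)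
      exact t2 L hL (by rw [pgl_eq_one_of_three (t L) c1.symm (Ne.symm c) c2 (tL L hL) (fx 1) (fx 2), one_pow])
    exact t2 L₁ h1 (pgl_eq_one_of_three _ h12 h13 h23 (this _ h1) (this _ h2) (this _ h3))
  have tr : ∀ {H : Type} [Group H] (e : X ≃* H), ∀ L (hL : L ∈ T) (j : ℕ), e ⟨t L, tX L hL⟩ ^ j = 1 → t L ^ j = 1 :=
    fun e L hL j hj => congrArg Subtype.val (e.injective (a₁ := ⟨t L, tX L hL⟩ ^ j) (a₂ := 1) (by rw [map_pow, hj, map_one]))
  rcases dickson_coprime X.subtype X.subtype_injective (by rwa [Ne, ZMod.natCast_eq_zero_iff]) with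
    hc | ⟨k, -, ⟨e⟩⟩ | ⟨⟨e⟩⟩ | ⟨⟨e⟩⟩ | ⟨⟨e⟩⟩
  · exact (nc fun L hL => show _ * _ = _ * _ from
      congrArg Subtype.val ((cyclic_abelian hc).is_comm.comm ⟨_, tX L₁ h1⟩ ⟨_, tX L hL⟩)).elim
  · refine (nc fun L hL => show _ * _ = _ * _ from congrArg Subtype.val
      (e.injective (a₁ := ⟨_, tX L₁ h1⟩ * ⟨_, tX L hL⟩) (a₂ := ⟨_, tX L hL⟩ * ⟨_, tX L₁ h1⟩) ?_)).elim
    have a1 := mt (tr e L₁ h1 2) (t2 L₁ h1)
    have a2 := mt (tr e L hL 2) (t2 L hL)
    rw [map_mul, map_mul]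
    generalize e _ = x at a1
    generalize e _ = y at a2
    rcases x with i | i <;> rcases y with j | j <;> simp_all [sq, add_comm]
  · have : ∀ g : alternatingGroup (Fin 4), g ^ 2 = 1 ∨ g ^ 3 = 1 := by decide +kernel
    exact ((this _).elim (mt (tr e L₁ h1 2) (t2 L₁ h1)) (mt (tr e L₁ h1 3) (t3 L₁ h1))).elim
  · have a0 : ∀ g : Equiv.Perm (Fin 4), g ^ 2 = 1 ∨ g ^ 3 = 1 ∨ g ^ 4 = 1 := by decide +kernel
    have a1 := tj L₁ h1 4 (tr e L₁ h1 4 (((a0 _).resolve_left (mt (tr e L₁ h1 2) (t2 L₁ h1))).resolve_left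
      (mt (tr e L₁ h1 3) (t3 L₁ h1))))
    have a2 := Nat.le_of_dvd (by norm_num) a1
    refine ⟨by by_contra c; obtain rfl : p = 11 := by omega
               exact absurd a1 (by norm_num), ?_⟩
    haveI := Fintype.ofFinite T
    have a3 := Finset.card_le_mul_card_image_of_maps_to (s := Finset.univ)
      (t := Finset.univ.filter fun g : Equiv.Perm (Fin 4) => g ^ 2 ≠ 1 ∧ g ^ 3 ≠ 1)
      (f := fun L : T => e ⟨t L, tX L L.2⟩)
      (fun L _ => Finset.mem_filter.2 ⟨Finset.mem_univ _, mt (tr e L L.2 2) (t2 L L.2), mt (tr e L L.2 3) (t3 L L.2)⟩) 2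
      fun g _ => by
        by_contra! c
        obtain ⟨x, hx, y, hy, w, hw, xy, xw, yw⟩ := Finset.two_lt_card.1 c
        have q : ∀ y, y ∈ Finset.univ.filter (fun L : T => e ⟨t L, tX L L.2⟩ = g) → t x • y.1 = y.1 := fun y hy => by
          rw [show t x = t y from
            congrArg Subtype.val (e.injective ((Finset.mem_filter.1 hx).2.trans (Finset.mem_filter.1 hy).2.symm))]
          exact tL y y.2
        exact t2 x x.2 (by rw [pgl_eq_one_of_three (t x) (Subtype.coe_ne_coe.2 xy) (Subtype.coe_ne_coe.2 xw)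
          (Subtype.coe_ne_coe.2 yw) (q x hx) (q y hy) (q w hw), one_pow])
    rw [Finset.card_univ, ← Nat.card_eq_fintype_card, Nat.card_coe_set_eq, show (Finset.univ.filter
      fun g : Equiv.Perm (Fin 4) => g ^ 2 ≠ 1 ∧ g ^ 3 ≠ 1).card = 6 by decide +kernel] at a3
    exact a3
  · have a1 := tj L₁ h1 5 (tr e L₁ h1 5 (((alt5_pow_eq_one _).resolve_left (mt (tr e L₁ h1 2) (t2 L₁ h1))).resolve_left
      (mt (tr e L₁ h1 3) (t3 L₁ h1))))
    have a2 := Nat.le_of_dvd (by norm_num) a1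
    have a3 : Odd (p - 1) := Odd.of_dvd_nat (by decide) a1
    rw [Nat.odd_iff] at a3
    omega

theorem X3.bound (h : X3 p P z) {y₁ y₂ y₃ : G} {Y : Set G} (hY : ∀ y ∈ Y, y ∈ P ∧ y ∉ zpowers z ∧
    ∃ g, g * y * g⁻¹ ∈ zpowers z) (h1 : y₁ ∈ Y) (h2 : y₂ ∈ Y) (h3 : y₃ ∈ Y) (h12 : y₂ ∉ zpowers y₁ ⊔ zpowers z)
    (h13 : y₃ ∉ zpowers y₁ ⊔ zpowers z) (h23 : y₃ ∉ zpowers y₂ ⊔ zpowers z) :
    p ≤ 7 ∨ p = 13 ∧ ∃ y ∈ P, y ∉ zpowers z ∧ y ∉ Y := by
  obtain ⟨c, ρ, c1, c2, c3, c4, c5, c6⟩ := coord h.es h.cen h.card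
  let φ : N[P] →* PGL(2, ZMod p) := (Matrix.ProjGenLinGroup.mk.comp ρ).comp P.normalizerMonoidHom
  have n0 : ∀ y (hy : y ∈ Y), c ⟨y, (hY y hy).1⟩ ≠ 0 := fun y hy e => (hY y hy).2.1 (mem_zp.1 ((c4 _).1 e))
  have hφ : ¬ p ∣ Nat.card φ.range := by
    have a1 : P.subgroupOf N[P] ≤ φ.ker := fun x hx => by
      have : (ρ (P.normalizerMonoidHom x)).1 = 1 := Matrix.toLin'.injective (LinearMap.ext fun v => by
        obtain ⟨y, rfl⟩ := c3 v
        rw [Matrix.toLin'_apply, Matrix.toLin'_apply, c5, Matrix.one_mulVec,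
          show P.normalizerMonoidHom x y = ⁅(⟨x, hx⟩ : P), y⁆ * y from Subtype.ext (by simp [commutatorElement_def]),
          c1, (c4 _).2 (h.es.comm _ _), zero_add])
      change Matrix.ProjGenLinGroup.mk (ρ _) = 1
      rw [show ρ _ = 1 from Units.ext this, map_one]
    rw [← index_ker]
    exact fun a => (pHall_subl le_normalizer le_top h.syl).not_dvd (a.trans (index_dvd_of_le a1))
  obtain ⟨a, ha⟩ := IsCyclic.exists_ofOrder_eq_natCard (α := (ZMod p)ˣ)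
  rw [Nat.card_eq_fintype_card, ZMod.card_units] at ha
  have ne : ∀ {x y} (hx : x ∈ Y) (hy : y ∈ Y), y ∉ zpowers x ⊔ zpowers z →
      Projectivization.mk (ZMod p) _ (n0 x hx) ≠ Projectivization.mk (ZMod p) _ (n0 y hy) := fun {x y} hx hy hn e => by
    obtain ⟨u, hu⟩ := (Projectivization.mk_eq_mk_iff' _ _ _ _ _).1 e.symm
    obtain ⟨n, rfl⟩ := ZMod.intCast_surjective u
    have := mem_zp.1 ((c4 (⟨_, (hY _ hx).1⟩ ^ (-n) * ⟨_, (hY _ hy).1⟩)).1 (by rw [c1, c2, ← hu]; simp))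
    exact hn (by simpa using mul_mem (mem_sup_left (zpow_mem (mem_zpowers x) n)) (mem_sup_right this))
  refine (proj hφ (T := {L | ∃ y, ∃ hy : y ∈ Y, Projectivization.mk _ _ (n0 y hy) = L}) ?_ ⟨_, h1, rfl⟩ ⟨_, h2, rfl⟩
    ⟨_, h3, rfl⟩ (ne h1 h2 h12) (ne h1 h3 h13) (ne h2 h3 h23)).imp_right fun ⟨e, h4⟩ => ⟨e, ?_⟩
  · rintro _ ⟨y, hy, rfl⟩
    obtain ⟨yP, yz, g, hg⟩ := hY y hy
    obtain ⟨i, hi⟩ := ZMod.intCast_surjective (a : ZMod p)
    obtain ⟨j, hj⟩ := ZMod.intCast_surjective ((a⁻¹ : (ZMod p)ˣ) : ZMod p)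
    obtain ⟨t, ht, t1, d, hd, t2⟩ := h.torus yP yz hg (a := i) (b := j)
      ((ZMod.intCast_zmod_eq_zero_iff_dvd _ _).1 (by push_cast; rw [hi, hj, Units.mul_inv, sub_self]))
    set A := ρ (P.normalizerMonoidHom ⟨t, ht⟩)
    have a1 : A.1.det = a := hi ▸ c6 _ i (Subtype.ext t1)
    have a2 : A.1 *ᵥ c ⟨y, yP⟩ = ((a⁻¹ : (ZMod p)ˣ) : ZMod p) • c ⟨y, yP⟩ := by
      rw [c5, show P.normalizerMonoidHom ⟨t, ht⟩ ⟨y, yP⟩ = ⟨y, yP⟩ ^ j * ⟨d, h.zle hd⟩ from Subtype.ext t2, c1, c2,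
        (c4 ⟨d, _⟩).2 (mem_zp.2 hd), add_zero, hj]
    refine ⟨_, ⟨⟨t, ht⟩, rfl⟩, ?_, fun k hk => ?_⟩
    · change Matrix.ProjGenLinGroup.mk A • _ = _
      rw [pgl_mk_smul, gl_smul_mk]
      exact (Projectivization.mk_eq_mk_iff' _ _ _ _ _).2 ⟨_, a2.symm⟩
    · change Matrix.ProjGenLinGroup.mk A ^ k = 1 at hk
      rw [← map_pow, ← map_one Matrix.ProjGenLinGroup.mk, eq_comm, pgl_mk_eq_iff] at hk
      obtain ⟨u, hu⟩ := hk
      have a3 : ∀ k : ℕ, (A ^ k).1 *ᵥ c ⟨y, yP⟩ = ((a⁻¹ ^ k : (ZMod p)ˣ) : ZMod p) • c ⟨y, yP⟩ := fun k => by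
        induction k with
        | zero => simp
        | succ k ih => rw [pow_succ', Units.val_mul, ← Matrix.mulVec_mulVec, ih, Matrix.mulVec_smul, a2, smul_smul,
          pow_succ, Units.val_mul]
      have a4 : u = ((a⁻¹ ^ k : (ZMod p)ˣ) : ZMod p) := smul_left_injective _ (n0 y hy) (by
        have := a3 k
        rwa [hu, Matrix.smul_mulVec, Units.val_one, Matrix.one_mulVec] at this)
      have a5 := congrArg Matrix.det hu
      rw [Units.val_pow_eq_pow_val, Matrix.det_pow, a1, Matrix.det_smul, a4] at a5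
      rw [← ha, orderOf_dvd_iff_pow_eq_one]
      have a6 : a ^ k = (a⁻¹ ^ k) ^ 2 := Units.ext (by simpa using a5)
      rw [show 3 * k = k + k * 2 by ring, pow_add, a6, pow_mul, ← mul_pow, ← mul_pow, inv_mul_cancel, one_pow, one_pow]
  · by_contra! c
    have : {L | ∃ y, ∃ hy : y ∈ Y, Projectivization.mk (ZMod p) _ (n0 y hy) = L} = Set.univ :=
      Set.eq_univ_of_forall fun L => by
        induction L using Projectivization.ind with
        | h v hv =>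
          obtain ⟨y, rfl⟩ := c3 v
          exact ⟨y, c y y.2 fun e => hv ((c4 _).2 (mem_zp.2 e)), rfl⟩
    rw [this, Set.ncard_univ, card_P1, Nat.card_zmod] at h4
    omega

end Cfsg.Agent.Small
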