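import Cfsg.Agent.Small.AssaA
import Cfsg.Agent.PGrp.Cyclic

/-! `2`-groups `T` with `|Z₄(T)| = 16` and `W = C_T(Z₃(T))` as in S3174 (helper9), part B:
`Hyp.der`, `Hyp.elem`, `Hyp.dih`, `Hyp.center`. -/

set_option autoImplicit false

namespace Cfsg.Agent.Small.Assa

open Subgroup Cfsg.Agent.Solv DihedralGroup
open scoped commutatorElement

variable {T : Type*} [Group T] [Finite T] {W : Subgroup T}

local notation "Z" => Subgroup.upperCentralSeries T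

theorem Hyp.der (h : Hyp W) : (commutator W).map W.subtype = Z 3 := by
  have hp := h.pg.to_subgroup W
  rw [← h.main.1]
  refine le_antisymm (map_mono ((frattini_le_iff hp).1 le_rfl).1) ?_
  let f : W →* Abelianization W := (powMonoidHom 2).comp Abelianization.of
  have hi : (f.ker.map W.subtype).relIndex W ≤ 8 := by
    rw [relIndex, subgroupOf, comap_map_eq_self_of_injective W.subtype_injective, index_ker]
    refine le_trans (card_le_of_le (K := (frattini W).map Abelianization.of) ?_)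
      ((Nat.le_of_dvd Nat.card_pos (card_map_dvd _ _)).trans h.hc)
    rintro _ ⟨w, rfl⟩
    exact ⟨w ^ 2, pow_mem_frattini hp w, map_pow _ _ _⟩
  rw [← h.big.fr_eq h.pg (map_subtype_le _) hi, map_frattini_le_iff (h.pg.to_subgroup _), map_subtype_commutator]
  refine ⟨commutator_mono (map_subtype_le _) (map_subtype_le _), ?_⟩
  rintro _ ⟨w, hw, rfl⟩
  rw [← map_subtype_commutator]
  refine ⟨w ^ 2, ?_, rfl⟩
  rw [← Abelianization.ker_of]
  exact (map_pow _ _ _).trans hw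

theorem Hyp.cm (h : Hyp W) {x y : T} (hx : x ∈ W) (hy : y ∈ W) : ⁅x, y⁆ ∈ Z 3 :=
  h.main.1.le (commutator_le_map_frattini (h.pg.to_subgroup W) (commutator_mem_commutator hx hy))

theorem Hyp.sq (h : Hyp W) {x : T} (hx : x ∈ W) : x ^ 2 ∈ Z 3 :=
  h.main.1.le (pow_mem_map_frattini (h.pg.to_subgroup W) hx)

omit [Finite T] in
theorem Hyp.co (h : Hyp W) {x z : T} (hx : x ∈ W) (hz : z ∈ Z 3) : z * x = x * z := h.eq.le hx z hz

theorem Hyp.le (h : Hyp W) : Z 3 ≤ W := h.main.1.ge.trans (map_subtype_le _)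

theorem Hyp.cm_mul (h : Hyp W) {x y y' : T} (hx : x ∈ W) (hy : y ∈ W) (hy' : y' ∈ W) :
    ⁅x, y * y'⁆ = ⁅x, y⁆ * ⁅x, y'⁆ := by
  calc ⁅x, y * y'⁆ = ⁅x, y⁆ * (y * ⁅x, y'⁆) * y⁻¹ := by simp only [commutatorElement_def]; group
    _ = _ := by rw [← h.co hy (h.cm hx hy')]; group

theorem Hyp.elem (h : Hyp W) : ∀ z ∈ Z 3, z ^ 2 = 1 := by
  let E : Subgroup T := {
    carrier := {z | z ∈ Z 3 ∧ z ^ 2 = 1}
    mul_mem' := fun {a b} ha hb => ⟨mul_mem ha.1 hb.1, by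
      rw [Commute.mul_pow (h.co (h.le hb.1) ha.1), ha.2, hb.2, mul_one]⟩
    one_mem' := ⟨one_mem _, one_pow _⟩
    inv_mem' := fun {a} ha => ⟨inv_mem ha.1, by rw [inv_pow, ha.2, inv_one]⟩ }
  have : Z 3 ≤ E := by
    rw [← h.der, map_subtype_commutator, commutator_le]
    exact fun x hx y hy => ⟨h.cm hx hy, by
      rw [pow_two, ← h.cm_mul hx hy hy, ← pow_two, commutatorElement_eq_one_iff_mul_comm, h.co hx (h.sq hy)]⟩
  exact fun z hz => (this hz).2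

theorem Hyp.inv (h : Hyp W) {z : T} (hz : z ∈ Z 3) : z⁻¹ = z :=
  inv_eq_of_mul_eq_one_right (by rw [← pow_two, h.elem z hz])

omit [Finite T] in
theorem mem_succ {i : ℕ} {x : T} (hx : x ∈ Z (i + 1)) (t : T) : ⁅t, x⁆ ∈ Z i := by
  rw [← inv_mem_iff, commutatorElement_inv]; exact Subgroup.mem_upperCentralSeries_succ_iff.1 hx t

omit [Finite T] in
theorem cm_mul_left (s t x : T) : ⁅s * t, x⁆ = ⁅s, ⁅t, x⁆⁆ * ⁅t, x⁆ * ⁅s, x⁆ := by
  simp only [commutatorElement_def]; group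

omit [Finite T] in
theorem one_of {x : T} (hx : x ∈ Z 1) (t : T) : ⁅t, x⁆ = 1 := by
  simpa using mem_succ hx t

/-- The centraliser of `Z₂(T)`. -/
abbrev BB (T : Type*) [Group T] : Subgroup T := centralizer (Subgroup.upperCentralSeries T 2 : Set T)

theorem Uni.mem_BB (h : Uni T) {y t : T} (hy : y ∈ Z 2) (hy' : y ∉ Z 1) : t ∈ BB T ↔ ⁅t, y⁆ = 1 := by
  rw [commutatorElement_eq_one_iff_mul_comm]
  refine ⟨fun ht => (ht y hy).symm, fun ht x hx => mem_centralizer_singleton_iff.1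
    (h.le_of (by omega) ?_ hy hy' (mem_centralizer_singleton_iff.2 ht.symm) hx)⟩
  rw [Subgroup.upperCentralSeries_one]; exact center_le_centralizer _

theorem Hyp.mem_W (h : Hyp W) {z t : T} (hz : z ∈ Z 3) (hz' : z ∉ Z 2) : t ∈ W ↔ t ∈ BB T ∧ ⁅t, z⁆ = 1 := by
  obtain ⟨y, hy, hy'⟩ := h.uni.exists_new (i := 1) (by omega)
  rw [h.uni.mem_BB hy hy', h.eq, h.uni.cent_eq hy hy' hz hz', mem_inf, and_comm]
  simp only [mem_centralizer_singleton_iff, commutatorElement_eq_one_iff_mul_comm]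

theorem Hyp.BB_index (h : Hyp W) : (BB T).index = 2 := by
  obtain ⟨y, hy, hy'⟩ := h.uni.exists_new (i := 1) (by omega)
  have h1 := index_cent_le (K := ⊤) fun g _ => Subgroup.mem_upperCentralSeries_succ_iff.1 hy g
  rw [relIndex_top_right, h.uni _ (by omega), show centralizer {y} = BB T from Subgroup.ext fun t => by
    rw [h.uni.mem_BB hy hy', mem_centralizer_singleton_iff, commutatorElement_eq_one_iff_mul_comm]] at h1
  have h2 : (BB T).index ≠ 1 := fun e => hy' (Subgroup.mem_upperCentralSeries_succ_iff.2 fun t => by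
    rw [← inv_mem_iff, commutatorElement_inv, (h.uni.mem_BB hy hy').1 (index_eq_one.1 e ▸ mem_top t)]
    exact one_mem _)
  have := index_ne_zero_of_finite (H := BB T)
  omega

theorem Hyp.sqB (h : Hyp W) {t : T} (ht : t ∈ BB T) : t * t ∈ W := by
  obtain ⟨z, hz, hz'⟩ := h.uni.exists_new (i := 2) (by omega)
  have h1 := mem_succ hz t
  refine (h.mem_W hz hz').2 ⟨mul_mem ht ht, ?_⟩
  rw [cm_mul_left, commutatorElement_eq_one_iff_mul_comm.2 (ht _ h1).symm, one_mul, ← pow_two,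
    h.elem _ (Subgroup.upperCentralSeries_mono T (by omega) h1)]

theorem Hyp.dih (h : Hyp W) [W.Normal] : Nonempty (T ⧸ W ≃* DihedralGroup 4) := by
  classical
  obtain ⟨z, hz, hz'⟩ := h.uni.exists_new (i := 2) (by omega)
  have i2 := h.BB_index
  have mB : ∀ s t, s * t ∈ BB T ↔ (s ∈ BB T ↔ t ∈ BB T) := fun s t => mul_mem_iff_of_index_two i2
  have m1 : ∀ s t, ⁅s * t, z⁆ ∈ Z 1 ↔ (⁅t, z⁆ ∈ Z 1 ↔ ⁅s, z⁆ ∈ Z 1) := fun s t => by
    rw [cm_mul_left, mul_assoc, mul_mem_cancel_left (mem_succ (mem_succ hz t) s)]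
    exact h.uni.mul_iff (by omega) (mem_succ hz t) (mem_succ hz s)
  obtain ⟨b, hb, hb'⟩ : ∃ b ∈ BB T, ⁅b, z⁆ ∉ Z 1 := by
    by_contra! H
    have h1 := index_cent_le (x := z) (K := BB T) (M := Z 1) fun g hg => by
      rw [← inv_mem_iff, commutatorElement_inv]; exact H g hg
    have h2 := relIndex_mul_index (H := W) (K := BB T) fun t ht => ((h.mem_W hz hz').1 ht).1
    rw [← inf_relIndex_right, h.uni _ (by omega), show centralizer {z} ⊓ BB T = W from Subgroup.ext fun t => by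
      rw [h.mem_W hz hz', mem_inf, and_comm, mem_centralizer_singleton_iff,
        commutatorElement_eq_one_iff_mul_comm]] at h1
    rw [i2, h.main.2.1] at h2; omega
  obtain ⟨c, hc, hc'⟩ : ∃ c, c ∉ BB T ∧ ⁅c, z⁆ ∉ Z 1 := by
    obtain ⟨s, hs⟩ : ∃ s, s ∉ BB T := by
      by_contra! H; rw [(eq_top_iff' _).2 H, index_top] at i2; omega
    by_cases e : ⁅s, z⁆ ∈ Z 1
    · exact ⟨s * b, by rw [mB]; tauto, by rw [m1]; tauto⟩
    · exact ⟨s, hs, e⟩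
  have z3 : ∀ t, ⁅t, z⁆ * ⁅t, z⁆ = 1 := fun t => by
    rw [← pow_two, h.elem _ (Subgroup.upperCentralSeries_mono T (by omega) (mem_succ hz t))]
  have c2 : c * c ∉ W := fun e => hc ((h.uni.mem_BB (mem_succ hz c) hc').2 (by
    have := ((h.mem_W hz hz').1 e).2
    rwa [cm_mul_left, mul_assoc, z3, mul_one] at this))
  have c2B : c * c ∈ BB T := (mB _ _).2 Iff.rfl
  have e1 : ∀ t : T, (t : T ⧸ W) = 1 ↔ t ∈ W := fun t => QuotientGroup.eq_one_iff t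
  have o4 : orderOf (c : T ⧸ W) = 4 := by
    refine orderOf_eq_prime_pow (p := 2) (n := 1) ?_ ?_
    · rwa [← QuotientGroup.mk_pow, e1, pow_one, pow_two]
    · rw [← QuotientGroup.mk_pow, e1, show c ^ 2 ^ (1 + 1) = c * c * (c * c) by simp [pow_succ, mul_assoc]]
      exact h.sqB c2B
  rw [← o4]
  refine PGrp.dihedral_of_index_two (x := (b : T ⧸ W)) ?_ (fun hm => ?_) ?_ ?_
  · have := (zpowers (c : T ⧸ W)).card_mul_index
    rw [Nat.card_zpowers, o4, ← index_eq_card, h.main.2.1] at this; omega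
  · obtain ⟨k, hk, e⟩ := (mem_zpowers_iff_mem_range_orderOf.trans Finset.mem_image).1 hm
    rw [o4, Finset.mem_range] at hk
    rw [← QuotientGroup.mk_pow, eq_comm, QuotientGroup.eq, h.mem_W hz hz'] at e
    have e2 : ⁅b⁻¹ * c ^ k, z⁆ ∈ Z 1 := e.2 ▸ one_mem _
    have e3 : ⁅b⁻¹, z⁆ ∉ Z 1 := fun e => hb' (((m1 b⁻¹ b).1 (by simp)).2 e)
    have e4 := (mul_mem_cancel_left (inv_mem hb)).1 e.1
    interval_cases k <;> simp only [pow_succ, pow_zero, one_mul, mul_one, m1, mB] at e2 e4 <;> tauto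
  · rw [← QuotientGroup.mk_pow, e1, pow_two]; exact h.sqB hb
  · have h1 : b * c * (b * c) ∈ W := (h.mem_W hz hz').2 ⟨(mB _ _).2 Iff.rfl, by
      rw [cm_mul_left, one_of ((m1 b c).2 (by tauto)), one_mul, z3]⟩
    have h2 := (e1 _).2 h1
    have h3 := (e1 _).2 (h.sqB hb)
    simp only [QuotientGroup.mk_mul] at h2 h3
    rw [inv_eq_of_mul_eq_one_right h3, eq_inv_iff_mul_eq_one, mul_assoc, h2]

set_option synthInstance.maxSize 2000 in
theorem dihF : ∀ b ∈ [(sr 0 : DihedralGroup 4), sr 1], ∀ F : DihedralGroup 4 → ℤˣ, ∏ q, F q = 1 → F 1 = 1 →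
    F (r 2) = 1 → F b = 1 → F (b * r 2) = 1 → (F (r 1) = 1 ↔ F (r 1)⁻¹ = 1) → ∀ q, F q = F ((r 2)⁻¹ * q) := by
  decide +kernel

set_option synthInstance.maxSize 2000 in
theorem dihG : ∀ b ∈ [(sr 0 : DihedralGroup 4), sr 1], ∀ f : DihedralGroup 4 → ℤˣ, f (r 1) * f (r 3) = 1 →
    f (b * r 1) * f (b * r 3) = 1 → f 1 * f (r 2) * f b * f (b * r 2) = 1 → ∃ g : DihedralGroup 4 → ℤˣ,
      f = g⁻¹ * (fun q => g ((r 2)⁻¹ * q)) ∨
      f = g⁻¹ * (fun q => g ((r 2)⁻¹ * q)) * ((Pi.mulSingle 1 (-1))⁻¹ * Pi.mulSingle b (-1)) := by decide +kernel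

theorem dihS (s : DihedralGroup 4) : (fun q => (Pi.mulSingle 1 (-1) : DihedralGroup 4 → ℤˣ) (s⁻¹ * q)) =
    Pi.mulSingle s (-1) := by revert s; decide +kernel

/-- Coordinates on `W / Z₃(T)`: the regular module of `T / W ≅ D₈`. -/
theorem Hyp.exists_kap (h : Hyp W) [W.Normal] : ∃ (ρ : T →* DihedralGroup 4) (κ : W →* (DihedralGroup 4 → ℤˣ)),
    Function.Surjective ρ ∧ ρ.ker = W ∧ Function.Surjective κ ∧ (∀ w, κ w = 1 ↔ w.1 ∈ Z 3) ∧
    (∀ s w, κ (cjW W s⁻¹ w) = fun q => κ w ((ρ s)⁻¹ * q)) ∧ ∀ u : W, u.1 ∈ Z 4 → u.1 ∉ Z 3 → κ u = fun _ => -1 := by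
  obtain ⟨e⟩ := h.dih
  obtain ⟨l, hl, hu⟩ := exists_crd h.pg h.uni (k := 3) (by omega) h.main.1 fun e => by
    have := card_le_of_le e
    rw [h.uni 3 (by omega), h.main.2.2.1] at this; omega
  let κ : W →* (DihedralGroup 4 → ℤˣ) := MonoidHom.pi fun q => (Pi.evalMonoidHom _ (e.symm q)).comp (crd l)
  have kv : ∀ w (t : T), κ w (e t) = l (cjW W t w) := fun w t => by
    rw [← crd_mk]; exact congrArg (crd l w) (e.symm_apply_apply _)
  have sj : ∀ q, ∃ t : T, e t = q := fun q => by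
    obtain ⟨t, ht⟩ := QuotientGroup.mk_surjective (e.symm q); exact ⟨t, by rw [ht, e.apply_symm_apply]⟩
  have kk : κ.ker = frattini W := by
    rw [← hl]
    exact Subgroup.ext fun w => ⟨fun hw => funext fun q => by
      simpa [κ] using congrFun (MonoidHom.mem_ker.1 hw) (e q), fun hw => funext fun q => congrFun hw _⟩
  refine ⟨e.toMonoidHom.comp (QuotientGroup.mk' W), κ, sj, ?_, ?_, fun w => ?_, fun s w => funext fun q => ?_,
    fun u h1 h2 => funext fun q => ?_⟩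
  · ext t; simp
  · rw [← MonoidHom.range_eq_top, ← card_eq_iff_eq_top, ← index_ker, kk, Nat.card_fun, nat_card,
      Nat.card_eq_fintype_card (α := ℤˣ), Fintype.card_units_int]
    have := (frattini W).card_mul_index
    rw [← card_map_of_injective W.subtype_injective, show (frattini W).map W.subtype = _ from h.main.1,
      h.uni 3 (by omega), h.main.2.2.1] at this
    omega
  · rw [← MonoidHom.mem_ker, kk, ← h.main.1]; exact (mem_map_iff_mem W.subtype_injective).symm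
  · obtain ⟨t, rfl⟩ := sj q
    rw [kv, show (e.toMonoidHom.comp (QuotientGroup.mk' W) s)⁻¹ * e t = e (s⁻¹ * t : T) by simp, kv]
    exact congrArg l (Subtype.ext (by simp [cjW_val, mul_assoc]))
  · obtain ⟨t, rfl⟩ := sj q
    rw [kv, hu _ (by rw [cjW_val]; exact Normal.conj_mem' inferInstance _ h1 t)]
    rw [cjW_val]
    exact fun e => h2 (by simpa [mul_assoc] using Normal.conj_mem inferInstance _ e t)

theorem Hyp.cm_iff (h : Hyp W) {x y y' : T} (hx : x ∈ W) (hy : y ∈ W) (hy' : y' ∈ W) :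
    ⁅x, y * y'⁆ ∈ Z 2 ↔ (⁅x, y⁆ ∈ Z 2 ↔ ⁅x, y'⁆ ∈ Z 2) := by
  rw [h.cm_mul hx hy hy']; exact h.uni.mul_iff (by omega) (h.cm hx hy) (h.cm hx hy')

omit [Finite T] in
theorem cm_symm {i : ℕ} {x y : T} : ⁅x, y⁆ ∈ Z i ↔ ⁅y, x⁆ ∈ Z i := by rw [← inv_mem_iff, commutatorElement_inv]

omit [Finite T] in
theorem cm_conj {i : ℕ} (s : T) {x y : T} : ⁅s * x * s⁻¹, s * y * s⁻¹⁆ ∈ Z i ↔ ⁅x, y⁆ ∈ Z i := by
  rw [← conjugate_commutatorElement, Normal.mem_comm_iff inferInstance, inv_mul_cancel_left]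

/-- The elements of `W` commuting with `x` modulo `Z₂`. -/
def Hyp.C (h : Hyp W) {x : T} (hx : x ∈ W) : Subgroup T where
  carrier := {y | y ∈ W ∧ ⁅x, y⁆ ∈ Z 2}
  mul_mem' := fun {a b} ha hb => ⟨mul_mem ha.1 hb.1, (h.cm_iff hx ha.1 hb.1).2 (iff_of_true ha.2 hb.2)⟩
  one_mem' := ⟨one_mem _, by simp⟩
  inv_mem' := fun {a} ha => ⟨inv_mem ha.1, ((h.cm_iff hx ha.1 (inv_mem ha.1)).1 (by simp)).1 ha.2⟩

theorem Hyp.le_C (h : Hyp W) {x : T} (hx : x ∈ W) : Z 3 ≤ h.C hx := fun z hz =>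
  ⟨h.le hz, by rw [commutatorElement_eq_one_iff_mul_comm.2 (h.co hx hz).symm]; exact one_mem _⟩

theorem Hyp.cj_eq (h : Hyp W) {u w : T} (hu : u ∈ W) (hw : w ∈ W) : ∃ z ∈ Z 3, u * w * u⁻¹ = w * z :=
  ⟨⁅u, w⁆, h.cm hu hw, by rw [← h.co hw (h.cm hu hw), commutatorElement_def, inv_mul_cancel_right]⟩

theorem Hyp.cmB (h : Hyp W) {w s : T} (hw : w ∈ W) (hs : s ∈ BB T) : ⁅w, s * w * s⁻¹⁆ ∈ Z 2 := by
  haveI := h.normal
  have key : ∀ u ∈ W, ∀ x ∈ W, ⁅x, u * w * u⁻¹⁆ = ⁅x, w⁆ := fun u hu x hx => by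
    obtain ⟨z, hz, e⟩ := h.cj_eq hu hw
    rw [e, h.cm_mul hx hw (h.le hz), commutatorElement_eq_one_iff_mul_comm.2 (h.co hx hz).symm, mul_one]
  have h1 := Normal.conj_mem inferInstance _ hw s
  by_contra hn
  refine hn ?_
  rw [key s ((h.mem_W (h.cm hw h1) hn).2 ⟨hs, ?_⟩) w hw, commutatorElement_self]
  · exact one_mem _
  rw [commutatorElement_def, conjugate_commutatorElement, show s * (s * w * s⁻¹) * s⁻¹ = s * s * w * (s * s)⁻¹ by group,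
    key _ (h.sqB hs) _ h1, ← commutatorElement_inv w, h.inv (h.cm hw h1), ← pow_two, h.elem _ (h.cm hw h1)]

theorem Hyp.sqB' (h : Hyp W) {w s : T} (hw : w ∈ W) (hs : s ∈ BB T) : (w⁻¹ * (s * w * s⁻¹)) ^ 2 ∈ Z 2 := by
  haveI := h.normal
  have h1 := Normal.conj_mem inferInstance _ hw s
  have : (w⁻¹ * (s * w * s⁻¹)) ^ 2 = w⁻¹ * (w⁻¹ * ⁅w, s * w * s⁻¹⁆) * (s * w ^ 2 * s⁻¹) := by
    simp only [commutatorElement_def, pow_two]; group
  rw [this, ← h.co (inv_mem hw) (h.cm hw h1), ← mul_assoc w⁻¹, ← h.co (inv_mem hw) (h.cm hw h1)]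
  convert mul_mem (h.cmB hw hs) (Subgroup.mem_upperCentralSeries_succ_iff.1 (inv_mem (h.sq hw)) s) using 1
  simp only [commutatorElement_def, pow_two, mul_assoc, mul_inv_rev, inv_inv]

theorem Hyp.sq_mul (h : Hyp W) {a b : T} (ha : a ∈ W) (hb : b ∈ W) (h1 : a ^ 2 ∈ Z 2) (h2 : b ^ 2 ∈ Z 2)
    (hc : ⁅a, b⁆ ∈ Z 2) : (a * b) ^ 2 ∈ Z 2 := by
  have := (inv_mem (show a ∈ h.C hb from ⟨ha, cm_symm.1 hc⟩)).2
  convert mul_mem (mul_mem h1 (cm_symm.1 this)) h2 using 1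
  simp only [commutatorElement_def, pow_two]; group

theorem Hyp.center (h : Hyp W) : (center W).map W.subtype = Z 3 := by
  classical
  haveI := h.normal
  haveI := h.pg.isNilpotent
  have hle : Z 3 ≤ (Subgroup.center W).map W.subtype := fun z hz =>
    ⟨⟨z, h.le hz⟩, mem_center_iff.2 fun w => Subtype.ext (h.co w.2 hz).symm, rfl⟩
  refine le_antisymm (by_contra fun hn => ?_) hle
  obtain ⟨u', hu4, hu3⟩ := h.uni.exists_new (i := 3) (by omega)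
  obtain ⟨u, hu, rfl⟩ := h.uni.succ_le (by omega) hle hn hu4
  obtain ⟨ρ, κ, hρ, kρ, hκ, kκ, hs, hc⟩ := h.exists_kap
  obtain ⟨w, hw⟩ := hκ (Pi.mulSingle 1 (-1))
  have cv : ∀ (s : T) (x : W), (cjW W s⁻¹ x : T) = s * x * s⁻¹ := fun s x => by rw [cjW_val, inv_inv]
  have nW : ∀ s : T, s * w * s⁻¹ ∈ W := fun s => Normal.conj_mem inferInstance _ w.2 s
  have ws : ∀ s, κ (cjW W s⁻¹ w) = Pi.mulSingle (ρ s) (-1) := fun s => by rw [hs, hw, dihS]
  have gen : ∀ K : Subgroup T, Z 3 ≤ K → (∀ s : T, s * w * s⁻¹ ∈ K) → W ≤ K := fun K h1 h2 x hx => by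
    obtain ⟨k, hk, e⟩ : κ ⟨x, hx⟩ ∈ (K.subgroupOf W).map κ := pi_mem_of_mulSingle_mem _ fun q => by
      obtain ⟨s, rfl⟩ := hρ q
      rcases Int.units_eq_one_or (κ ⟨x, hx⟩ (ρ s)) with e | e <;> rw [e]
      · rw [Pi.mulSingle_one]; exact one_mem _
      · exact ⟨_, by rw [SetLike.mem_coe, mem_subgroupOf, cv]; exact h2 s, ws s⟩
    have := h1 ((kκ (k⁻¹ * ⟨x, hx⟩)).1 (by rw [map_mul, map_inv, e, inv_mul_cancel]))
    simpa using mul_mem (mem_subgroupOf.1 hk) this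
  let χ : W →* ℤˣ := MonoidHom.mk' (fun x => if ⁅w.1, x.1⁆ ∈ Z 2 then 1 else -1) fun x y => by
    simp only [coe_mul, h.cm_iff w.2 x.2 y.2]
    by_cases hx : ⁅w.1, x.1⁆ ∈ Z 2 <;> by_cases hy : ⁅w.1, y.1⁆ ∈ Z 2 <;> simp [hx, hy]
  have χ1 : ∀ x : W, χ x = 1 ↔ ⁅w.1, x.1⁆ ∈ Z 2 := fun x => by
    by_cases hx : ⁅w.1, x.1⁆ ∈ Z 2 <;> simp [χ, hx]
  let χ' := κ.liftOfSurjective hκ ⟨χ, fun x hx => (χ1 x).2 (h.le_C w.2 ((kκ x).1 hx)).2⟩
  have χ2 : ∀ x, χ' (κ x) = χ x := fun x => MonoidHom.liftOfRightInverse_comp_apply _ _ _ _ x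
  let F : DihedralGroup 4 → ℤˣ := fun q => χ' (Pi.mulSingle q (-1))
  have F1 : ∀ s, F (ρ s) = 1 ↔ ⁅w.1, s * w * s⁻¹⁆ ∈ Z 2 := fun s => by
    simp only [F]; rw [← ws, χ2, χ1, cv]
  have FB : ∀ s ∈ BB T, F (ρ s) = 1 := fun s hs => (F1 s).2 (h.cmB w.2 hs)
  have mB : ∀ s t, s * t ∈ BB T ↔ (s ∈ BB T ↔ t ∈ BB T) := fun s t => mul_mem_iff_of_index_two h.BB_index
  obtain ⟨c, hc1⟩ := hρ (r 1)
  have cB : c ∉ BB T := fun e => by
    have := MonoidHom.mem_ker.1 (kρ.ge (h.sqB e))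
    rw [map_mul, hc1] at this; exact absurd this (by decide)
  have zB : c * c ∈ BB T := (mB _ _).2 Iff.rfl
  have hz : ρ (c * c) = r 2 := by rw [map_mul, hc1]; decide
  generalize c * c = z at zB hz
  obtain ⟨b, hb, hb'⟩ : ∃ b ∈ BB T, ρ b ∈ [(sr 0 : DihedralGroup 4), sr 1] := by
    obtain ⟨a, ha⟩ := hρ (sr 0)
    by_cases e : a ∈ BB T
    · exact ⟨a, e, by rw [ha]; decide⟩
    · exact ⟨a * c, (mB _ _).2 (iff_of_false e cB), by rw [map_mul, ha, hc1]; decide⟩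
  have Fz := dihF _ hb' F (by
      simp only [F]
      rw [← map_prod, show ∏ q : DihedralGroup 4, (Pi.mulSingle q (-1) : DihedralGroup 4 → ℤˣ) = fun _ => -1 from
        Finset.univ_prod_mulSingle fun _ => -1, ← hc u hu4 hu3, χ2, χ1,
        commutatorElement_eq_one_iff_mul_comm.2 (congrArg Subtype.val (mem_center_iff.1 hu w))]
      exact one_mem _) (map_one ρ ▸ FB 1 (one_mem _)) (hz ▸ FB z zB) (FB b hb)
    (by rw [← hz, ← map_mul]; exact FB _ (mul_mem hb zB)) (by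
      rw [← hc1, ← map_inv, F1, F1, ← cm_conj c (y := c⁻¹ * w * c⁻¹⁻¹), cm_symm]; simp [mul_assoc])
  let R : Subgroup T := ⨅ x : W, h.C x.2
  have mR : ∀ y, y ∈ R ↔ y ∈ W ∧ ∀ x ∈ W, ⁅x, y⁆ ∈ Z 2 := fun y => mem_iInf.trans
    ⟨fun H => ⟨(H 1).1, fun x hx => (H ⟨x, hx⟩).2⟩, fun H x => ⟨H.1, H.2 x x.2⟩⟩
  have ZR : Z 3 ≤ R := le_iInf fun x => h.le_C x.2
  haveI nR : R.Normal := ⟨fun y hy t => (mR _).2 ⟨Normal.conj_mem inferInstance _ ((mR y).1 hy).1 t, fun x hx => by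
    have := (cm_conj t).2 (((mR y).1 hy).2 _ (Normal.conj_mem' inferInstance _ hx t))
    simpa [mul_assoc] using this⟩⟩
  have r0 : w.1⁻¹ * (z * w * z⁻¹) ∈ R := by
    have h0 := mul_mem (inv_mem w.2) (nW z)
    refine (mR _).2 ⟨h0, fun x hx => cm_symm.1 (gen (h.C h0) (h.le_C h0) (fun s => ⟨nW s, ?_⟩) hx).2⟩
    rw [cm_symm, h.cm_iff (nW s) (inv_mem w.2) (nW z), ← cm_conj z⁻¹ (y := z * w * z⁻¹)]
    have e1 := F1 (z⁻¹ * s)
    rw [map_mul, map_inv, hz, ← Fz, F1, cm_symm, cm_symm (x := w.1)] at e1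
    refine Iff.trans ⟨fun H => by simpa using (inv_mem (show _ ∈ h.C (nW s) from ⟨inv_mem w.2, H⟩)).2,
      fun H => (inv_mem (show _ ∈ h.C (nW s) from ⟨w.2, H⟩)).2⟩ (e1.trans ?_)
    simp [mul_assoc]
  have r1 : ∀ x ∈ W, x⁻¹ * (z * x * z⁻¹) ∈ R := by
    let K : Subgroup T := W ⊓ (centralizer {(z : T ⧸ R)}).comap (QuotientGroup.mk' R)
    have mK : ∀ x, x ∈ K ↔ x ∈ W ∧ x⁻¹ * (z * x * z⁻¹) ∈ R := fun x => mem_inf.trans <| and_congr_right fun _ => by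
      rw [← QuotientGroup.eq, mem_comap, mem_centralizer_singleton_iff]
      simp only [QuotientGroup.mk'_apply, QuotientGroup.mk_mul, QuotientGroup.mk_inv, eq_mul_inv_iff_mul_eq]
    refine fun x hx => ((mK x).1 (gen K (fun y hy => (mK y).2 ⟨h.le hy, ZR (mul_mem (inv_mem hy)
      (Normal.conj_mem inferInstance _ hy z))⟩) (fun s => (mK _).2 ⟨nW s, ?_⟩) hx)).2
    obtain ⟨y, hy, e⟩ := h.cj_eq (u := z⁻¹ * (s⁻¹ * z * s)) (kρ.le (by
      rw [MonoidHom.mem_ker]; simp only [map_mul, map_inv, hz]; generalize ρ s = q; revert q; decide)) w.2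
    have := nR.conj_mem _ (mul_mem r0 (nR.conj_mem _ (ZR hy) z)) s
    convert this using 1
    calc _ = s * (w.1⁻¹ * z * (z⁻¹ * (s⁻¹ * z * s) * w * (z⁻¹ * (s⁻¹ * z * s))⁻¹) * z⁻¹) * s⁻¹ := by group
      _ = _ := by rw [e]; group
  let P : Subgroup T := {
    carrier := {x | x ∈ R ∧ x ^ 2 ∈ Z 2}
    mul_mem' := fun {a b} ha hb => ⟨mul_mem ha.1 hb.1, h.sq_mul ((mR _).1 ha.1).1 ((mR _).1 hb.1).1 ha.2 hb.2
      (((mR _).1 hb.1).2 _ ((mR _).1 ha.1).1)⟩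
    one_mem' := ⟨one_mem _, by simp⟩
    inv_mem' := fun {a} ha => ⟨inv_mem ha.1, by rw [inv_pow]; exact inv_mem ha.2⟩ }
  have h0 := mul_mem (inv_mem w.2) (nW b)
  have PW : P ≤ W := fun x hx => ((mR _).1 hx.1).1
  have EW : P ⊔ zpowers (w.1⁻¹ * (b * w * b⁻¹)) ≤ W := sup_le PW (zpowers_le.2 h0)
  have PC : ∀ {x} (hx : x ∈ W), P ≤ h.C hx := fun hx y hy => ⟨PW hy, ((mR _).1 hy.1).2 _ hx⟩
  have EC : ∀ x ∈ P ⊔ zpowers (w.1⁻¹ * (b * w * b⁻¹)), ∀ y ∈ P ⊔ zpowers (w.1⁻¹ * (b * w * b⁻¹)), ⁅x, y⁆ ∈ Z 2 :=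
    fun x hx y hy => (sup_le (PC (EW hx)) (zpowers_le.2 ⟨h0, cm_symm.1
      (sup_le (PC h0) (zpowers_le.2 ⟨h0, by simp⟩) hx).2⟩) hy).2
  let S : Subgroup T := {
    carrier := {x | x ∈ P ⊔ zpowers (w.1⁻¹ * (b * w * b⁻¹)) ∧ x ^ 2 ∈ Z 2}
    mul_mem' := fun {a b} ha hb => ⟨mul_mem ha.1 hb.1, h.sq_mul (EW ha.1) (EW hb.1) ha.2 hb.2 (EC _ ha.1 _ hb.1)⟩
    one_mem' := ⟨one_mem _, by simp⟩
    inv_mem' := fun {a} ha => ⟨inv_mem ha.1, by rw [inv_pow]; exact inv_mem ha.2⟩ }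
  have hF : Fr (P ⊔ zpowers (w.1⁻¹ * (b * w * b⁻¹))) ≤ Z 2 :=
    (map_frattini_le_iff (h.pg.to_subgroup _)).2 ⟨commutator_le.2 EC, fun x hx =>
      (sup_le (b := zpowers _) (c := S) (fun y hy => ⟨mem_sup_left hy, hy.2⟩)
        (zpowers_le.2 ⟨mem_sup_right (mem_zpowers _), h.sqB' w.2 hb⟩) hx).2⟩
  let ev := Pi.evalMonoidHom fun _ : DihedralGroup 4 => ℤˣ
  let θ := (ev (r 1) * ev (r 3)).prod ((ev (ρ b * r 1) * ev (ρ b * r 3)).prod
    (ev 1 * ev (r 2) * ev (ρ b) * ev (ρ b * r 2)))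
  rw [h.big.fr_eq h.pg EW, h.main.1] at hF
  · have := card_le_of_le hF
    rw [h.uni 3 (by omega), h.uni 2 (by omega)] at this; omega
  refine le_trans (index_antitone (H := (θ.comp κ).ker) fun x hx => ?_) ?_
  · have hx := Prod.ext_iff.1 (MonoidHom.mem_ker.1 hx)
    obtain ⟨g, hg⟩ := dihG _ hb' (κ x) hx.1 (Prod.ext_iff.1 hx.2).1 (Prod.ext_iff.1 hx.2).2
    obtain ⟨y, rfl⟩ := hκ g
    have ZP : Z 3 ≤ P := fun a ha => ⟨ZR ha, by rw [h.elem a ha]; exact one_mem _⟩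
    have yP : y.1⁻¹ * (z * y * z⁻¹) ∈ P := ⟨r1 y y.2, h.sqB' y.2 zB⟩
    rw [← hz, ← hs, ← ws, ← hw] at hg
    simp only [← map_inv, ← map_mul] at hg
    rw [mem_subgroupOf]
    rcases hg with hg | hg <;> rw [eq_comm, ← inv_mul_eq_one, ← map_inv, ← map_mul, kκ] at hg <;>
      have h1 := mem_sup_left (T := zpowers (w.1⁻¹ * (b * w * b⁻¹))) (ZP hg) <;>
      simp only [coe_mul, coe_inv, cv] at h1
    · exact (mul_mem_cancel_left (inv_mem (mem_sup_left yP))).1 h1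
    · exact (mul_mem_cancel_left (inv_mem (mul_mem (mem_sup_left yP) (mem_sup_right (mem_zpowers _))))).1 h1
  · rw [index_ker]
    refine (card_le_card_group _).trans ?_
    simp

end Cfsg.Agent.Small.Assa
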