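import Cfsg.Agent.BG.S2Abelem
import Cfsg.Agent.BG.Base6
import Cfsg.Agent.Gen2.MinInv
import Cfsg.Agent.PGrp.Sympl
import Cfsg.Agent.GW.DihCent
import Cfsg.Agent.Gen2.CopClass
import Cfsg.Agent.S0205
import Cfsg.Agent.S0564
import Cfsg.Agent.Loc.S4Inv
import Mathlib.FieldTheory.Finite.GaloisField
import Mathlib.LinearAlgebra.Eigenspace.Minpoly
import Mathlib.GroupTheory.IsPerfect

/-! Linear groups all of whose orbits on vectors have `p`-power size (helper9): a perfect `q'`-group acting on an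
`F_q`-space with the same orbits as a `p`-subgroup acts trivially (`PPOrb.triv`); internal form `PPOrb.le_cent`. -/

set_option linter.dupNamespace false
set_option linter.unusedSectionVars false

namespace Cfsg.Agent.Small.PPOrb
open Subgroup Module Polynomial

variable {q : ℕ} [hq : Fact q.Prime] {V A : Type*} [AddCommGroup V] [Module (ZMod q) V] [Finite V] [Group A] [Finite A]

theorem scalar [Nontrivial V] {w c : End (ZMod q) V} (hw : w ^ q = w) (hc : c * w = w * c)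
    (irr : ∀ W : Submodule (ZMod q) V, (∀ v ∈ W, c v ∈ W) → W = ⊥ ∨ W = ⊤) : ∃ l : ZMod q, ∀ v, w v = l • v := by
  have h1 : minpoly (ZMod q) w ∣ X ^ q - X := minpoly.dvd _ _ (by simp [hw])
  have h2 := Polynomial.splits_X_pow_nat_card_sub_X (K := ZMod q)
  rw [Nat.card_zmod] at h2
  obtain ⟨l, hl⟩ := (h2.of_dvd (FiniteField.X_pow_card_sub_X_ne_zero _ hq.out.one_lt) h1).exists_eval_eq_zero
    (minpoly.degree_pos (Algebra.IsIntegral.isIntegral w)).ne'
  refine ⟨l, fun v => End.mem_eigenspace_iff.1 (((irr (w.eigenspace l) fun v hv => ?_).resolve_left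
    (End.hasEigenvalue_of_isRoot hl)).ge trivial)⟩
  rw [End.mem_eigenspace_iff] at hv ⊢
  rw [← End.mul_apply, ← hc, End.mul_apply, hv, map_smul]

theorem no_two [hP : Group.IsPerfect A] (L : Subgroup A) : L.index ≠ 2 := fun h => by
  have k : _root_.commutator A ≤ L := commutator_le.2 fun a _ b _ => by
    simp [commutatorElement_def, mul_mem_iff_of_index_two h]; tauto
  rw [hP.1, top_le_iff] at k
  simp [k] at h

theorem union [Group.IsPerfect A] (ρ : Representation (ZMod q) A V) (W : Submodule (ZMod q) V) (y : A)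
    (h : ∀ a, ∀ v ∈ W, ρ a v ∈ W ∨ ρ a v ∈ W.map (ρ y)) (a : A) : ∀ v ∈ W, ρ a v ∈ W := by
  have inj : ∀ a, Function.Injective (ρ a) := fun a => (ρ.apply_bijective a).1
  have cd : ∀ a, Nat.card (W.map (ρ a)) = Nat.card W := fun a =>
    (Nat.card_congr (W.equivMapOfInjective _ (inj a)).toEquiv).symm
  have ml : ∀ a b, W.map (ρ (a * b)) = (W.map (ρ b)).map (ρ a) := fun a b => by
    rw [map_mul, End.mul_eq_comp, Submodule.map_comp]
  have eq : ∀ U U' : Submodule (ZMod q) V, U ≤ U' → Nat.card U = Nat.card U' → U = U' := fun U U' h1 h2 =>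
    SetLike.coe_injective (Set.eq_of_subset_of_ncard_le h1 h2.ge)
  have f : ∀ a, W.map (ρ a) = W ∨ W.map (ρ a) = W.map (ρ y) := fun a =>
    (AddSubgroupClass.subset_union.1 (by rintro _ ⟨v, hv, rfl⟩; exact h a v hv)).imp (eq _ _ · (cd a))
      (eq _ _ · ((cd a).trans (cd y).symm))
  have one : W.map (ρ 1) = W := by rw [map_one, End.one_eq_id, Submodule.map_id]
  let S : Subgroup A := ⟨⟨⟨{a | W.map (ρ a) = W}, fun {a b} ha hb => (ml a b).trans (by rw [hb]; exact ha)⟩, one⟩,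
    fun {a} ha => by have := ml a⁻¹ a; rw [inv_mul_cancel, one, ha] at this; exact this.symm⟩
  have h2 : S.index ∣ 2 := index_dvd_two_iff.2 ⟨y, fun b => or_iff_not_imp_right.2 fun hb => by
    have := ml b b⁻¹
    rw [mul_inv_cancel, one, (f b⁻¹).resolve_left fun h => hb (inv_mem_iff.1 (show b⁻¹ ∈ S from h)), ← ml] at this
    exact this.symm⟩
  have h3 : W.map (ρ a) = W :=
    (index_eq_one.1 (((Nat.dvd_prime Nat.prime_two).1 h2).resolve_right (no_two S))).ge (mem_top a)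
  exact fun v hv => h3.le ⟨v, hv, rfl⟩

theorem quat [Nontrivial V] (ρ : Representation (ZMod q) A V) (hρ : Function.Injective ρ) (hA : ¬ q ∣ Nat.card A)
    (two : ∀ v : V, -v = v → v = 0) (q2 : q ≠ 2) {c x : A} {n : ℕ} (hc : orderOf c = 2 ^ n) (hx : x * c * x⁻¹ = c⁻¹)
    (neg : ∀ e, orderOf e = 2 → ρ e = -1)
    (irr : ∀ W : Submodule (ZMod q) V, (∀ v ∈ W, ρ c v ∈ W) → W = ⊥ ∨ W = ⊤) {v : V} (hv : v ≠ 0) {a b : A}
    (ha : ρ a v = v) (hb : ρ b v = v) : a * b = b * a := by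
  haveI : CharP (End (ZMod q) V) q := charP_of_injective_algebraMap (algebraMap (ZMod q) _).injective q
  have h1 : c ^ (q + 1) = 1 := by
    by_contra h1
    obtain ⟨j, -, hj⟩ := (Nat.dvd_prime_pow Nat.prime_two).1 (hc ▸ orderOf_pow_dvd (x := c) (q + 1))
    obtain _ | j := j
    · exact h1 (orderOf_eq_one_iff.1 hj)
    have h2 : orderOf ((c ^ 2 ^ j) ^ (q + 1)) = 2 := by
      rw [← pow_mul, mul_comm, pow_mul, orderOf_pow_of_dvd (by positivity) (hj ▸ pow_dvd_pow 2 j.le_succ), hj, pow_succ,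
        Nat.mul_div_cancel_left _ (by positivity)]
    have hd : x * c ^ 2 ^ j = (c ^ 2 ^ j)⁻¹ * x := by rw [← inv_pow, ← hx, conj_pow]; group
    have cd : Commute c (c ^ 2 ^ j) := Commute.self_pow _ _
    generalize c ^ 2 ^ j = d at h2 hd cd
    have h3 : ρ d ^ q = -ρ d⁻¹ := by
      rw [← map_pow, show d ^ q = d ^ (q + 1) * d⁻¹ by group, map_mul, neg _ h2, neg_one_mul]
    have h4 : ρ d⁻¹ ^ q = -ρ d := by
      rw [← map_pow, show d⁻¹ ^ q = (d ^ (q + 1))⁻¹ * d by group, map_mul, neg _ (by rw [orderOf_inv, h2]), neg_one_mul]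
    obtain ⟨l, hl⟩ := scalar (w := ρ d - ρ d⁻¹) (c := ρ c) (by
      rw [sub_pow_char_of_commute _ ((Commute.refl d).inv_right.map ρ), h3, h4]; abel)
      ((cd.map ρ).sub_right (cd.inv_right.map ρ)).eq irr
    have h5 : ρ (x * d) = ρ (x * d⁻¹) := LinearMap.ext fun u => sub_eq_zero.1 (two _ (by
      have a1 := hl (ρ x u)
      have a2 := congrArg (ρ x) (hl u)
      simp only [LinearMap.sub_apply, map_sub, map_smul, ← End.mul_apply, ← map_mul] at a1 a2
      rw [← hd, show d * x = x * d⁻¹ by rw [eq_mul_inv_iff_mul_eq, mul_assoc, hd]; group] at a1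
      rw [neg_sub, a1, a2]))
    have h6 : d ^ 2 = 1 := by rw [sq, ← eq_inv_iff_mul_eq_one]; exact mul_left_cancel (hρ h5)
    obtain ⟨m, hm⟩ := (hq.out.odd_of_ne_two q2).add_one.two_dvd
    simp [hm, pow_mul, h6] at h2
  have h2 : c ^ q = c⁻¹ := eq_inv_of_mul_eq_one_left (by rw [← pow_succ, h1])
  obtain ⟨l, hl⟩ := scalar (w := ρ c + ρ c⁻¹) (c := ρ c) (by
    rw [add_pow_char_of_commute _ ((Commute.refl c).inv_right.map ρ), ← map_pow, ← map_pow, inv_pow, h2, inv_inv, add_comm])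
    (((Commute.refl c).map ρ).add_right ((Commute.refl c).inv_right.map ρ)).eq irr
  have h3 : ρ c (ρ c v) = l • ρ c v - v := by
    rw [← hl, LinearMap.add_apply, ← End.mul_apply (ρ c⁻¹), ← map_mul, inv_mul_cancel, map_one]; simp
  have h4 := (irr (.span _ {v, ρ c v}) fun u hu => by
    obtain ⟨α, β, rfl⟩ := Submodule.mem_span_pair.1 hu
    exact Submodule.mem_span_pair.2 ⟨-β, α + β * l, by simp only [map_add, map_smul, h3]; module⟩).resolve_left
    fun h => hv ((Submodule.mem_bot _).1 (h.le (Submodule.subset_span (by simp))))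
  have h5 : ∀ u, ∃ α β : ZMod q, α • v + β • ρ c v = u := fun u => Submodule.mem_span_pair.1 (h4.ge trivial)
  obtain ⟨α, β, e1⟩ := h5 (ρ a (ρ c v))
  obtain ⟨γ, δ, e2⟩ := h5 (ρ b (ρ c v))
  have k0 : ρ (b * a)⁻¹ v = v := by
    have : ρ (b * a) v = v := by rw [map_mul, End.mul_apply, ha, hb]
    conv_lhs => rw [← this, ← End.mul_apply, ← map_mul, inv_mul_cancel, map_one]
    rfl
  have k1 : ρ ((b * a)⁻¹ * (a * b)) v = v := by rw [map_mul, map_mul, End.mul_apply, End.mul_apply, hb, ha, k0]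
  have k2 : ρ ((b * a)⁻¹ * (a * b)) (ρ c v) = ρ c v + (γ + δ * α - α - β * γ) • v := by
    have : ρ (a * b) (ρ c v) = ρ (b * a) (ρ c v) + (γ + δ * α - α - β * γ) • v := by
      rw [map_mul, map_mul, End.mul_apply, End.mul_apply, ← e1, ← e2]
      simp only [map_add, map_smul, ha, hb, ← e1, ← e2]; module
    rw [map_mul, End.mul_apply, this, map_add, map_smul, k0, ← End.mul_apply, ← map_mul, inv_mul_cancel, map_one]; rfl
  generalize γ + δ * α - α - β * γ = ε at k2
  rw [eq_comm, ← inv_mul_eq_one]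
  generalize (b * a)⁻¹ * (a * b) = k at k1 k2
  have k3 : ∀ m : ℕ, ρ (k ^ m) v = v ∧ ρ (k ^ m) (ρ c v) = ρ c v + (m * ε) • v := fun m => by
    induction m with
    | zero => simp
    | succ m ih =>
      simp only [pow_succ', map_mul, End.mul_apply, ih, k1, k2, map_add, map_smul, true_and]; push_cast; module
  have k4 : k ^ q = 1 := hρ (LinearMap.ext fun u => by
    obtain ⟨α, β, rfl⟩ := h5 u
    simp [-map_pow, k3])
  exact orderOf_eq_one_iff.1 (((Nat.dvd_prime hq.out).1 (orderOf_dvd_of_pow_eq_one k4)).resolve_right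
    fun h => hA (h ▸ orderOf_dvd_natCard k))

theorem sol [Nontrivial V] [Group.IsPerfect A] (ρ : Representation (ZMod q) A V) (hρ : Function.Injective ρ)
    (hA : ¬ q ∣ Nat.card A) (irr : ∀ W : Submodule (ZMod q) V, (∀ a, ∀ v ∈ W, ρ a v ∈ W) → W = ⊥ ∨ W = ⊤)
    {p : ℕ} [hp : Fact p.Prime] {P : Subgroup A} (hP : IsPGroup p P) (ho : ∀ a v, ∃ g ∈ P, ρ g v = ρ a v) :
    Group.IsSolvable A := by
  by_contra hs
  have ev : 2 ∣ Nat.card A := (Nat.not_odd_iff_even.1 fun h => hs (S0205.result h)).two_dvd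
  have q2 : q ≠ 2 := fun h => hA (h ▸ ev)
  have two : ∀ v : V, -v = v → v = 0 := fun v h => by
    have h2 : ((2 : ℕ) : ZMod q) ≠ 0 := fun h =>
      q2 ((Nat.prime_dvd_prime_iff_eq hq.out Nat.prime_two).1 ((ZMod.natCast_eq_zero_iff 2 q).1 h))
    exact (smul_eq_zero.1 (show ((2 : ℕ) : ZMod q) • v = 0 by
      rw [Nat.cast_smul_eq_nsmul, two_nsmul, ← neg_eq_iff_add_eq_zero, h])).resolve_left h2
  have sq : ∀ e, e * e = 1 → ∀ v, ρ e (ρ e v) = v := fun e h v => by
    rw [← End.mul_apply, ← map_mul, h, map_one]; rfl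
  obtain rfl : p = 2 := by
    by_contra p2
    obtain ⟨t, ht⟩ := exists_prime_orderOf_dvd_card' 2 ev
    obtain ⟨u, hu⟩ : ∃ u, ρ t u ≠ u := not_forall.1 fun h =>
      Invol.ne_one_of ht (hρ (LinearMap.ext fun u => by simp [h]))
    obtain ⟨g, hg, e⟩ := ho t (u - ρ t u)
    rw [map_sub (ρ t), sq t (Invol.mul_self_of ht), ← neg_sub u] at e
    obtain ⟨k, hk⟩ := hP ⟨g, hg⟩
    have : ∀ m : ℕ, ρ (g ^ m) (u - ρ t u) = (-1 : ℤ) ^ m • (u - ρ t u) := fun m => by
      induction m with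
      | zero => simp
      | succ m ih => rw [pow_succ, map_mul, End.mul_apply, e, map_neg, ih, pow_succ]; simp
    have := this (p ^ k)
    rw [show g ^ p ^ k = 1 from congrArg Subtype.val hk, (hp.out.odd_of_ne_two p2).pow.neg_one_pow, map_one,
      neg_one_smul] at this
    exact hu (sub_eq_zero.1 (two _ this.symm)).symm
  obtain ⟨S, hS⟩ := hP.exists_le_sylow
  have K : ∀ (W : Submodule (ZMod q) V) (y : S), (∀ g : S, ∀ v ∈ W, ρ g v ∈ W ∨ ρ g v ∈ W.map (ρ y)) → W = ⊥ ∨ W = ⊤ :=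
    fun W y h => irr W (union ρ W y fun a v hv => by
      obtain ⟨g, hg, e⟩ := ho a v
      exact e ▸ h ⟨g, hS hg⟩ v hv)
  have neg : ∀ e y : S, e ≠ 1 → e * e = 1 → (∀ g, g * e * g⁻¹ = e ∨ g * e * g⁻¹ = y * e * y⁻¹) → ρ e = -1 :=
    fun e y e1 e2 h => by
      have e3 : (e : A) * e = 1 := congrArg Subtype.val e2
      have h1 := (K (LinearMap.ker (ρ e - 1)) y fun g v hv => by
        have hv : ρ e v = v := by simpa [sub_eq_zero] using hv
        have : ∀ g : S, g * e * g⁻¹ = e → ρ g v ∈ LinearMap.ker (ρ e - 1) := fun g h => by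
          have h : (e : A) * g = g * e := congrArg Subtype.val (mul_inv_eq_iff_eq_mul.1 h).symm
          rw [LinearMap.mem_ker, LinearMap.sub_apply, End.one_apply, ← End.mul_apply, ← map_mul, h, map_mul, End.mul_apply,
            hv, sub_self]
        refine (h g).imp (this g) fun h => ⟨_, this (y⁻¹ * g) (by
          rw [show y⁻¹ * g * e * (y⁻¹ * g)⁻¹ = y⁻¹ * (g * e * g⁻¹) * y by group, h]; group), ?_⟩
        rw [← End.mul_apply, ← map_mul]; simp).resolve_right fun h => e1 (Subtype.ext (hρ (by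
          rw [LinearMap.ker_eq_top, sub_eq_zero] at h; simp [h])))
      refine LinearMap.ext fun v => eq_neg_of_add_eq_zero_left ((Submodule.mem_bot _).1 (h1.le ?_))
      simp [sq _ e3, add_comm]
  rcases PGrp.isCyclic_or_isMC S.2 (fun B hB h1 h2 => by
    have h4 := Loc.isKleinFour_of_ea h1 h2
    obtain ⟨z, ⟨zB, -, zc⟩, z1⟩ := (Subgroup.bot_or_exists_ne_one _).resolve_left (BG.meet_center_nil (M := ⊤) (N := B)
      (BG.pgroup_nil (IsPGroup.to_subgroup S.2 ⊤)) ⟨le_top, (normalizer_eq_top B).ge⟩ (fun h => by simp [h] at h2))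
    have zc : ∀ g, g * z * g⁻¹ = z := fun g => mul_inv_eq_iff_eq_mul.2 (zc g trivial)
    obtain ⟨e, eB, e1, ez⟩ : ∃ e ∈ B, e ≠ 1 ∧ e ≠ z := by
      obtain ⟨a, b, -, -, -, a1, b1, ab, h⟩ := Invol.exists_of_isKleinFour h4
      by_cases c : a = z
      exacts [⟨b, (h b).2 (by simp), b1, fun e => ab (c.trans e.symm)⟩, ⟨a, (h a).2 (by simp), a1, c⟩]
    have h5 : ∀ g, g * e * g⁻¹ = e ∨ g * e * g⁻¹ = z * e := fun g =>
      (((Invol.mem_four_iff h4 zB eB z1 e1 ez.symm _).1 (hB.conj_mem e eB g)).resolve_left (by simpa using e1)).resolve_left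
        fun h => ez ((MulAut.conj g).injective (h.trans (zc g).symm))
    obtain ⟨y, hy⟩ : ∃ y, ∀ g, g * e * g⁻¹ = e ∨ g * e * g⁻¹ = y * e * y⁻¹ := by
      by_cases c : ∃ y, y * e * y⁻¹ = z * e
      · obtain ⟨y, hy⟩ := c
        exact ⟨y, hy ▸ h5⟩
      · exact ⟨1, fun g => .inl ((h5 g).resolve_right fun h => c ⟨g, h⟩)⟩
    exact ez (Subtype.ext (hρ ((neg e y e1 (Invol.mul_self_of_mem_four h4 eB) hy).trans
      (neg z 1 z1 (Invol.mul_self_of_mem_four h4 zB) fun g => .inl (zc g)).symm)))) with hc | ⟨-, a, x, n, h⟩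
  · have h2 := (Nat.minFac_eq_two_iff _).2 ev
    haveI := S0205.result ((hc.isComplement' h2).index_eq_card ▸ Nat.odd_iff.2 (Nat.two_dvd_ne_zero.1 S.not_dvd_index))
    haveI := S.2.isNilpotent
    exact hs (Group.isSolvable_of_ker_le_range (Subgroup.subtype _) (MonoidHom.transferSylow S
      (hc.normalizer_le_centralizer h2)) (range_subtype _).ge)
  have z1 := neg _ 1 h.z_ne_one (by rw [← pow_two, h.z_sq]) fun g => .inl
    (mul_inv_eq_iff_eq_mul.2 (mem_center_iff.1 h.z_mem_center g))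
  have z2 : ∀ e : A, orderOf e = 2 → e = (a ^ 2 ^ (n - 1) : S) := fun e he => by
    obtain ⟨g, rfl⟩ := isConj_iff.1 (GW.isConj_of_cyclic (X := A) no_two S (T := zpowers (a : A)) inferInstance (by
      refine Eq.trans (congrArg index ?_) h.idx
      ext; simp [mem_subgroupOf, mem_zpowers_iff, Subtype.ext_iff])
      (t := ((a ^ 2 ^ (n - 1) : S) : A)) (pow_mem (mem_zpowers _) _) (by rw [orderOf_coe, h.orderOf_z]) he)
    exact hρ (by rw [map_mul, map_mul, z1, mul_neg_one, neg_mul, ← map_mul, mul_inv_cancel, map_one])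
  have x2 : x ^ 2 ≠ 1 := fun e => h.nmem (by
    rw [Subtype.ext (z2 x (by rw [orderOf_coe]; exact orderOf_eq_prime e fun e => h.nmem (e ▸ one_mem _)))]
    exact pow_mem (mem_zpowers a) _)
  obtain ⟨v, hv⟩ := exists_ne (0 : V)
  let H : Subgroup A := ⟨⟨⟨{a | ρ a v = v}, fun {a b} ha hb => by
    rw [Set.mem_setOf, map_mul, End.mul_apply, hb]; exact ha⟩, by simp⟩, fun {a} ha => by
      have := congrArg (ρ a⁻¹) (show ρ a v = v from ha)
      rw [← End.mul_apply, ← map_mul, inv_mul_cancel, map_one] at this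
      exact this.symm⟩
  have : IsMulCommutative H := ⟨⟨fun b c => Subtype.ext (quat ρ hρ hA two q2 (c := a) (x := x) (n := n)
    (by rw [orderOf_coe, h.ord]) (congrArg Subtype.val ((h.dqs.resolve_left fun h => x2 h.1).resolve_right
      fun h => x2 h.2.1).2) (fun e he => by rw [z2 e he, z1]) (fun W hW => K W x fun g u hu => by
        have : ∀ i : ℤ, ρ (a ^ i : S) u ∈ W := fun i => by
          obtain ⟨m, hm⟩ := (isOfFinOrder_of_finite a).mem_powers_iff_mem_zpowers.2 (zpow_mem_zpowers a i)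
          rw [← hm]; clear hm
          induction m with
          | zero => simpa
          | succ m ih => simpa [pow_succ'] using hW _ ih
        obtain ⟨i, rfl | rfl⟩ := h.cases g
        exacts [.inl (this i), .inr ⟨_, this i, by simp⟩]) hv b.2 c.2)⟩⟩
  refine hs (S0564.result S H S.2.isNilpotent (BG.abelian_nil this) fun g => ?_)
  obtain ⟨s, hs, e⟩ := ho g v
  refine ⟨s, hS hs, s⁻¹ * g, show ρ _ v = v from ?_, by group⟩
  rw [map_mul, End.mul_apply, ← e, ← End.mul_apply, ← map_mul, inv_mul_cancel, map_one]; rfl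

theorem triv [Nontrivial V] [Group.IsPerfect A] (ρ : Representation (ZMod q) A V)
    (hA : ¬ q ∣ Nat.card A) (irr : ∀ W : Submodule (ZMod q) V, (∀ a, ∀ v ∈ W, ρ a v ∈ W) → W = ⊥ ∨ W = ⊤)
    {p : ℕ} [hp : Fact p.Prime] {P : Subgroup A} (hP : IsPGroup p P) (ho : ∀ a v, ∃ g ∈ P, ρ g v = ρ a v) (a : A) :
    ρ a = 1 := by
  have := sol (A := A ⧸ MonoidHom.ker ρ) (QuotientGroup.lift _ ρ le_rfl)
    ((injective_iff_map_eq_one _).2 fun a => QuotientGroup.induction_on a fun a h => (QuotientGroup.eq_one_iff a).2 h)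
    (fun h => hA (h.trans (card_quotient_dvd_card _))) (fun W hW => irr W fun a => hW (a : A ⧸ MonoidHom.ker ρ))
    (hP.map (QuotientGroup.mk' _)) fun a v => QuotientGroup.induction_on a fun a =>
      (ho a v).elim fun g hg => ⟨_, ⟨g, hg.1, rfl⟩, hg.2⟩
  have := not_nontrivial_iff_subsingleton.1 fun _ : Nontrivial (A ⧸ MonoidHom.ker ρ) => Group.IsPerfect.not_isSolvable (A ⧸ MonoidHom.ker ρ) this
  exact (QuotientGroup.eq_one_iff a).1 (Subsingleton.elim (a : A ⧸ MonoidHom.ker ρ) 1)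

open BG in
theorem le_cent {G : Type*} [Group G] [Finite G] {D V : Subgroup G} (hV : IsPGroup q V) (ab : IsMulCommutative V)
    (hn : D ≤ N[V]) (hD : ⁅D, D⁆ = D) (co : ¬ q ∣ #D) {p : ℕ} [hp : Fact p.Prime]
    (h : ∀ v ∈ V, ∃ k, C1[v].relIndex D = p ^ k) : D ≤ C[V] := by
  have c2 : ∀ U ≤ V, (#U).Coprime #D := fun U hU => by
    obtain ⟨k, hk⟩ := (hV.to_le hU).exists_card_eq
    exact hk ▸ ((Nat.Prime.coprime_iff_not_dvd hq.out).2 co).pow_left k
  refine coprime_abelian_faithful_Ohm1 hV hn (c2 V le_rfl) ab (cents_symm (by_contra fun hc => ?_))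
  obtain ⟨U, h1, h2, h3, h4⟩ := Gen2.exists_min_inv (norms_Ohm q hn) hc
  have aU := abelemS h1 (Ohm1_abelem q ab)
  have hU := h1.trans (Ohm_sub q V)
  have ti := coprime_abel_cent_TI h2 (c2 U hU) aU.1
  have e : ⁅U, D⁆ = U := (commg_subl h2).eq_or_lt.resolve_right fun l =>
    h3 (commG1.1 (le_bot_iff.1 (ti ▸ le_inf le_rfl (h4 _ l (commg_normr U D)))))
  rw [e] at ti
  haveI : Nontrivial (AbV aU) := Finite.one_lt_card_iff_nontrivial.1 (one_lt_card_iff_ne_bot U |>.2 fun e => h3 (e ▸ bot_le))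
  haveI : Group.IsPerfect D := isPerfect_iff.2 hD
  obtain ⟨P⟩ : Nonempty (Sylow p D) := inferInstance
  refine h3 (cents_symm fun a ha => abRep_eq_one.1 (triv (abRep aU h2) co (fun W hW => ?_) P.2 (fun a v => ?_) ⟨a, ha⟩))
  · exact (AbV.toSub_le W).lt_or_eq.imp (fun l => AbV.toSub_eq_bot.1 (le_bot_iff.1
      (ti ▸ le_inf l.le (h4 _ l (norm_toSub hW))))) AbV.toSub_eq_self.1
  · obtain ⟨k, hk⟩ := h _ (hU v.val_mem)
    obtain ⟨g, hg, c, hc, rfl⟩ := Gen2.exists_mul_of_coprime (A := (P : Subgroup D)) (B := C1[v.val].subgroupOf D)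
      (by rw [← relIndex, hk]; exact ((Nat.Prime.coprime_iff_not_dvd hp.out).2 P.not_dvd_index).symm.pow_right k) a
    refine ⟨g, hg, ?_⟩
    rw [map_mul, End.mul_apply, (abRep_apply_eq_self (a := c)).2 (mem_cent1.2 (mem_cent1.1 hc).symm)]

end Cfsg.Agent.Small.PPOrb
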