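import Cfsg.Agent.Small.MmnA

/-! Groups with class sizes `1, m, m n`: the case `O_t(G) ≰ Z(G)` for a prime `t ∣ m`. -/

set_option autoImplicit false

namespace Cfsg.Agent.Small.Mmn

open Subgroup Cfsg Cfsg.Agent.BG Cfsg.Agent.Gen2 Cfsg.Agent.FG
open scoped commutatorElement Pointwise

variable {G : Type*} [Group G] [Finite G] {m n p q t : ℕ} {x y s k g ρ : G}

def E (G : Type*) [Group G] (m : ℕ) : Subgroup G := centralizer {k : G | PiElt (primesOf m)ᶜ k}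

instance instNormalE (G : Type*) [Group G] (m : ℕ) : (E G m).Normal := ⟨fun a ha g k hk => by
  have := ha (g⁻¹ * k * g⁻¹⁻¹) (p_eltJ.2 hk)
  calc _ = g * (g⁻¹ * k * g⁻¹⁻¹ * a) * g⁻¹ := by group
    _ = _ := by rw [this]; group⟩

omit [Finite G] in
theorem E_le (hk : PiElt (primesOf m)ᶜ k) : E G m ≤ C1[k] := fun _ ha => mem_cent.2 (ha k hk).symm

structure Gd (m t : ℕ) (ρ : G) : Prop where
  pr : t.Prime
  d : t ∣ m
  nc : ρ ∉ center G
  pe : PiElt {t} ρ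
  mem : ρ ∈ E G m

omit [Finite G] in
theorem Gd.c (r : Gd m t ρ) (hk : PiElt (primesOf m)ᶜ k) : k ∈ C1[ρ] := mem_cent_comm.1 (E_le hk r.mem)

theorem Gd.idx (r : Gd m t ρ) (h : T G m n) : C1[ρ].index = m := (h.cs ρ r.nc).resolve_right fun e => by
  have := piNat_relIndex (π := primesOf m) (E := C1[ρ]) (D := ⊤) fun q hq nq y _ hy => r.c (pi_pnat hy nq)
  rw [relIndex_top_right, e] at this
  obtain ⟨q, hq, d⟩ := Nat.exists_prime_and_dvd h.hn.ne'
  exact h.nd hq (mem_primesOf.1 (this q hq (d.mul_left m))).2 d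

theorem Gd.A (r : Gd m t ρ) (h : T G m n) (hp : p.Prime) (d : p ∣ m) (hy : y ∈ C1[ρ]) (py : PiElt {p} y) :
    y ∈ E G m := fun k hk => by
  have := Fact.mk hp
  have := Fact.mk r.pr
  have k1 : ∀ y ∈ C1[ρ], PiElt {t}ᶜ y → C1[y].relIndex C1[ρ] ∣ n := fun y hy py => h.dvd r.nc hy (pnat_coprime r.pe py)
  have j1 : ∀ x ∈ C1[ρ], ∀ y ∈ C1[ρ], PiElt {t} x → PiElt {t}ᶜ y → x ∈ C1[y] := fun x hx y hy =>
    jlem (fun y hy py d => h.nd r.pr r.d (d.trans (k1 y hy py))) hx hy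
  refine (mem_cent.1 ?_ : y * k = k * y).symm
  by_cases e : p = t
  · subst e; exact j1 y hy k (r.c hk) py (pe' hp d hk)
  refine jlem (t := p) (D := C1[ρ]) (fun a ha _ da => ?_) hy (r.c hk) py (pe' hp d hk)
  have l1 : C1[a] ⊓ C1[ρ] ≤ C1[constt {t}ᶜ a] ⊓ C1[ρ] := inf_le_inf_right _ (cent1_le_constt _ _)
  rw [← inf_relIndex_right, ← relIndex_mul_relIndex _ _ _ l1 inf_le_right, inf_relIndex_right] at da
  rcases (Nat.Prime.dvd_mul hp).1 da with da | da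
  · refine e (piNat_relIndex (π := {t}) (E := C1[a] ⊓ C1[ρ]) (D := C1[constt {t}ᶜ a] ⊓ C1[ρ])
      (fun u _ nu w hw pw => mem_inf.2 ⟨?_, hw.2⟩) p hp da)
    rw [cent1_eq_inf_constt {t}]
    exact ⟨mem_cent_comm.1 (j1 _ (constt_mem _ ha) w hw.2 (p_elt_constt _ _) (pe_ne nu pw)), hw.1⟩
  · exact h.nd hp d (da.trans (k1 _ (constt_mem _ ha) (p_elt_constt _ _)))

theorem Gd.rel (r : Gd m t ρ) (h : T G m n) (hx : x ∉ center G) (hl : E G m ≤ C1[x]) :
    PiNat (primesOf m)ᶜ (C1[ρ].relIndex (E G m) * (E G m).relIndex C1[x]) := by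
  have h1 : PiNat (primesOf m)ᶜ ((E G m).relIndex C1[ρ]) := piNat_relIndex fun p hp np y hy py =>
    r.A h hp (mem_primesOf.1 (not_not.1 np)).2 hy py
  have e1 := relIndex_mul_index (inf_le_right : E G m ⊓ C1[ρ] ≤ C1[ρ])
  have e2 := relIndex_mul_index (inf_le_left : E G m ⊓ C1[ρ] ≤ E G m)
  rw [inf_relIndex_right, r.idx h] at e1
  rw [inf_relIndex_left, ← relIndex_mul_index hl, ← e1] at e2
  obtain ⟨c, hc⟩ : m ∣ C1[x].index := by rcases h.cs x hx with e | e <;> simp [e]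
  refine h1.of_dvd ⟨c, Nat.eq_of_mul_eq_mul_right (by have := h.hm; omega : 0 < m) ?_⟩
  rw [← e2, hc]; ring

theorem Gd.le (r : Gd m t ρ) (h : T G m n) : E G m ≤ C1[ρ] := by
  obtain ⟨q, hq, nq, k, nk, pk⟩ := h.exQ
  exact relIndex_eq_one.1 (pnat_1 (piNat_relIndex fun q hq nq y _ hy => r.c (pi_pnat hy nq))
    (pnat_mul.1 (r.rel h nk (E_le (pe_nd nq pk)))).1)

theorem Gd.B (r : Gd m t ρ) (h : T G m n) (nk : k ∉ center G) (hk : PiElt (primesOf m)ᶜ k) (d : p ∣ m) (hp : p.Prime)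
    (hy : y ∈ C1[k]) (py : PiElt {p} y) : y ∈ E G m :=
  mem_of_piElt (π := primesOf m) ⟨E_le hk, norm_of_normal _ _⟩ (pnat_mul.1 (r.rel h nk (E_le hk))).2 hy
    (pi_pnat py (mem_primesOf.2 ⟨hp, d⟩))

theorem T.Eab (h : T G m n) : E G m ≤ C[E G m] := fun a ha b hb => by
  refine mem_cent.1 (mem_of_parts hb fun r hr _ y hy _ py => mem_cent_comm.1 ?_)
  by_cases z : y ∈ center G
  · rw [cent_eq_top_iff.2 z]; trivial
  by_cases d : r ∣ m
  exacts [Gd.le ⟨hr, d, z, py, hy⟩ h ha, E_le (pe_nd d py) ha]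

omit [Finite G] in
theorem mem_CE (hk : PiElt (primesOf m)ᶜ k) : k ∈ C[E G m] := fun _ ha => mem_cent.1 (E_le hk ha)

theorem Gd.eq (r : Gd m t ρ) (h : T G m n) : C1[ρ] = C[E G m] :=
  le_antisymm (fun a ha => mem_of_parts ha fun p hp _ y hy _ py => by
    by_cases d : p ∣ m
    exacts [h.Eab (r.A h hp d hy py), mem_CE (pe_nd d py)]) fun a ha => mem_cent.2 (ha ρ r.mem).symm

theorem Gd.eq1 (r : Gd m t ρ) (h : T G m n) (hp : p.Prime) (hx : x ∈ C[E G m]) (nx : x ∉ center G)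
    (px : PiElt {p} x) : C1[x] = C[E G m] := by
  by_cases d : p ∣ m
  · exact Gd.eq ⟨hp, d, nx, px, r.A h hp d (r.eq h ▸ hx) px⟩ h
  have k1 : ∀ x, x ∉ center G → PiElt {p} x → C1[x] ≤ C[E G m] := fun x nx px a ha =>
    mem_of_parts ha fun q hq _ y hy _ py => by
      by_cases d' : q ∣ m
      exacts [h.Eab (r.B h nx (pe_nd d px) d' hq hy py), mem_CE (pe_nd d' py)]
  rw [← r.eq h]
  refine h.eq r.nc (r.eq h ▸ k1 x nx px) (Or.inl ((h.cs x nx).resolve_right fun e => ?_))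
  obtain ⟨g, hg⟩ : ∃ g, g ∉ C1[ρ] := by
    by_contra! H
    exact r.nc (cent_eq_top_iff.1 (eq_top_iff.2 fun g _ => H g))
  have ng : g ∉ center G := fun z => hg (center_le_centralizer _ z)
  have := Fact.mk hp
  have dv : #C1[x] ∣ #C1[g] := by
    have e1 := card_mul_index C1[x]
    rw [← card_mul_index C1[g], e] at e1
    rcases h.cs g ng with e' | e' <;> rw [e'] at e1
    · exact ⟨n, Nat.eq_of_mul_eq_mul_right (by have := h.hm; omega : 0 < m) (by rw [← e1]; ring)⟩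
    · exact (Nat.eq_of_mul_eq_mul_right (e ▸ cs_pos x) e1).dvd
  obtain ⟨y, hy, ny, py⟩ := exists_nc (E := C1[g]) (center_le_centralizer {x}) (self_mem_cent x) nx px
    (Nat.le_of_dvd (partn_pos _ _) (partn_dvd _ Nat.card_pos.ne' dv))
  exact hg (r.eq h ▸ k1 y ny py (mem_cent_comm.1 hy))

structure Ab (M : Subgroup G) (m : ℕ) : Prop where
  idx : M.index = m
  eq : ∀ v ∈ M, v ∉ center G → C1[v] = M
  ex : ∃ v ∈ M, v ∉ center G

theorem Gd.ab (r : Gd m t ρ) (h : T G m n) : Ab C[E G m] m := by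
  have k1 : ∀ a ∈ C[E G m], C[E G m] ≤ C1[a] := fun a ha b hb =>
    mem_cent_comm.1 (mem_of_parts ha fun p hp _ y hy _ py => mem_cent_comm.1 (by
      by_cases z : y ∈ center G
      · rw [cent_eq_top_iff.2 z]; trivial
      · rw [r.eq1 h hp hy z py]; exact hb))
  refine ⟨r.eq h ▸ r.idx h, fun v hv nv => le_antisymm ?_ (k1 v hv), ρ, r.eq h ▸ self_mem_cent ρ, r.nc⟩
  by_contra H
  refine nv (mem_of_parts hv fun p hp _ y hy zy py => by_contra fun z => H ?_)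
  exact r.eq1 h hp hy z py ▸ cent_le_cent_of_mem_zpowers zy

theorem T.ab (h : T G m n) [ht : Fact t.Prime] (d : t ∣ m) (nc : ¬ pCore t G ≤ center G) :
    ∃ M : Subgroup G, M.Normal ∧ Ab M m := by
  obtain ⟨ρ, h1, h2⟩ := SetLike.not_le_iff_exists.1 nc
  exact ⟨_, inferInstance, Gd.ab ⟨ht.out, d, h2, mem_p_elt (BG.IsPGroup.pi (Solv.isPGroup_pCore t G)) h1,
    fun k hk => (mem_cent.1 (h.core d (pe' ht.out d hk) h1)).symm⟩ h⟩

end Cfsg.Agent.Small.Mmn
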