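import Cfsg.Agent.Small.MmnB

/-! Groups with class sizes `1, m, m n`: consequences of an abelian normal centralizer `M` of index `m`. -/

set_option autoImplicit false

namespace Cfsg.Agent.Small.Mmn

open Subgroup Cfsg Cfsg.Agent.BG Cfsg.Agent.Gen2 Cfsg.Agent.FG
open scoped commutatorElement Pointwise

variable {G : Type*} [Group G] [Finite G] {m n p q t : ℕ} {x y s k g v : G} {M : Subgroup G} {π : Set ℕ}

omit [Finite G] in
theorem Ab.Z (a : Ab M m) : center G ≤ M := by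
  obtain ⟨v, hv, nv⟩ := a.ex
  exact a.eq v hv nv ▸ center_le_centralizer _

omit [Finite G] in
theorem Ab.le (a : Ab M m) (hv : v ∈ M) : M ≤ C1[v] := by
  by_cases z : v ∈ center G
  · rw [cent_eq_top_iff.2 z]; exact le_top
  · exact (a.eq v hv z).ge

omit [Finite G] in
theorem Ab.comm (a : Ab M m) : IsMulCommutative M :=
  ⟨⟨fun u v => Subtype.ext (mem_cent.1 (a.le v.2 u.2))⟩⟩

omit [Finite G] in
theorem Ab.out (a : Ab M m) (hg : g ∉ M) (hv : v ∈ M) (c : v ∈ C1[g]) : v ∈ center G :=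
  by_contra fun z => hg (a.eq v hv z ▸ mem_cent_comm.1 c)

theorem Ab.hall (a : Ab M m) (π : Set ℕ) : IsPiHallOf π (piCoreOf π M) M := nilpotent_pcore_Hall π (abelian_nil a.comm)

theorem Ab.mem (a : Ab M m) (hv : v ∈ M) (pv : PiElt π v) : v ∈ piCoreOf π M :=
  mem_normal_Hall (a.hall π) (pcore_normal π M) hv pv

theorem core_normal (π : Set ℕ) (M : Subgroup G) [M.Normal] : (piCoreOf π M).Normal := ((normal_top M).pcore π).normal

theorem Ab.exo (a : Ab M m) (hp : p.Prime) (d : p ∣ m) : ∃ g, g ∉ M ∧ PiElt {p} g := by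
  by_contra! H
  refine (piNat_relIndex (π := {p}ᶜ) (E := M) (D := ⊤) fun r _ nr y _ hy => ?_).not_dvd hp (by simp)
    (by rwa [relIndex_top_right, a.idx])
  obtain rfl : r = p := by simpa using nr
  exact by_contra fun z => H y z hy

theorem Ab.exi (a : Ab M m) (h : T G m n) [Fact p.Prime] (d : p ∣ m) : ∃ u ∈ M, u ∉ center G ∧ PiElt {p} u := by
  obtain ⟨v, hv, nv⟩ := a.ex
  exact a.eq v hv nv ▸ h.exP d v

theorem Ab.uniq [M.Normal] (a : Ab M m) (h : T G m n) (hp : p.Prime) (hq : q.Prime) (d : p ∣ m) (d' : q ∣ m) : p = q := by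
  by_contra ne
  have := Fact.mk hq
  have := core_normal {q} M
  obtain ⟨g, ng, pg⟩ := a.exo hp d
  obtain ⟨s, c, ns, ps⟩ := h.exP d' g
  obtain ⟨u, hu, nu, pu⟩ := a.exi h d'
  have sM : s ∉ M := fun z => ns (a.out ng z c)
  exact nu (a.out ng hu (pxq (Op_pgroup q M) ps (pe_ne ne pg) c (nN _ _) (nN _ _)
    (fun w hw => center_le_centralizer _ (a.out sM (pcore_sub _ _ hw.1) hw.2)) (a.mem hu pu)))

theorem Ab.memq [M.Normal] (a : Ab M m) (d : ¬ q ∣ m) (hq : q.Prime) (pk : PiElt {q} k) : k ∈ M :=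
  mem_of_piElt (π := {q}) (normal_top M) (by rw [relIndex_top_right, a.idx]; exact (p'natE hq).2 d) trivial pk

theorem Ab.prime [M.Normal] (a : Ab M m) (h : T G m n) : m.Prime := by
  obtain ⟨p, hp, d⟩ := Nat.exists_prime_and_dvd h.hm.ne'
  have := Fact.mk hp
  obtain ⟨P⟩ : Nonempty (Sylow p G) := inferInstance
  have nU := core_normal {p} M
  have nK := core_normal {p}ᶜ M
  obtain ⟨u, hu, nu, up, cu⟩ := PGrp.exists_central_mod_pow P.isPGroup' (M := (center G).subgroupOf P)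
    (N := M.subgroupOf P) (fun H => by
      obtain ⟨u, hu, nu, pu⟩ := a.exi h d
      exact nu (H (x := ⟨u, (Op_pgroup p M).le_sylow_of_normal P (a.mem hu pu)⟩) hu))
  have eu : C1[(u : G)] = M := a.eq u hu nu
  have cu' : ∀ g ∈ (P : Subgroup G), ⁅(u : G), g⁆ ∈ center G := fun g hg => cu ⟨g, hg⟩
  have k1 : ∀ g ∈ (P : Subgroup G), g ^ p ∈ M := fun g hg => by
    rw [← eu, mem_cent_comm, Gen2.mem_cent, ← commutatorElement_eq_one_iff_mul_comm,
      PGrp.commutator_pow_right (PGrp.commute_of_mem_center (cu' g hg) _),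
      ← PGrp.commutator_pow_left (PGrp.commute_of_mem_center (cu' g hg) _), commutatorElement_eq_one_iff_mul_comm]
    exact (mem_center_iff.1 up g).symm
  have k2 : ∀ g ∈ (P : Subgroup G), ∀ g' ∈ (P : Subgroup G), (g' * g)⁻¹ * (g * g') ∈ M := fun g hg g' hg' => by
    have e : ⁅(u : G), g * g'⁆ = ⁅(u : G), g' * g⁆ := by
      rw [PGrp.commutator_mul_right (PGrp.commute_of_mem_center (cu' _ hg') _),
        PGrp.commutator_mul_right (PGrp.commute_of_mem_center (cu' _ hg) _)]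
      exact (mem_center_iff.1 (cu' g hg) _).symm
    rw [← eu, Gen2.mem_cent]
    calc _ = (g' * g)⁻¹ * (⁅(u : G), g * g'⁆⁻¹ * u) * (g * g') := by simp only [commutatorElement_def]; group
      _ = _ := by rw [e]; simp only [commutatorElement_def]; group
  have inU : ∀ g ∈ (P : Subgroup G), g ∈ M → g ∈ piCoreOf {p} M := fun g hg hM =>
    a.mem hM (mem_p_elt (BG.IsPGroup.pi P.isPGroup') hg)
  set f := QuotientGroup.mk' (piCoreOf {p} M) with hf
  have sf : Function.Surjective f := QuotientGroup.mk'_surjective _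
  have cy : IsCyclic ((P : Subgroup G).map f) := by
    by_contra nc
    have := nK.map f sf
    have le := coprime_abelian_gen_cent1 (A := (P : Subgroup G).map f) (K := (piCoreOf {p}ᶜ M).map f)
      (L := (center G).map f) ⟨⟨by
        rintro ⟨_, g, hg, rfl⟩ ⟨_, g', hg', rfl⟩
        refine Subtype.ext ?_
        change f g * f g' = f g' * f g
        rw [← map_mul, ← map_mul, eq_comm]
        exact QuotientGroup.eq.2 (inU _ (mul_mem (inv_mem (mul_mem hg' hg)) (mul_mem hg hg')) (k2 g hg g' hg'))⟩⟩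
      nc (norm_of_normal _ _)
      (pnat_coprime' (pgroup_map f (pcore_pgroup _ _)) (pgroup_map f (BG.IsPGroup.pi P.isPGroup'))) (by
        rintro _ ⟨g, hg, rfl⟩ g1 _ ⟨⟨k, hk, rfl⟩, c⟩
        have gM : g ∉ M := fun z => g1 ((QuotientGroup.eq_one_iff g).2 (inU g hg z))
        have e1 : ⁅k, g⁆ ∈ piCoreOf {p} M := (QuotientGroup.eq_one_iff _).1 (by
          change f ⁅k, g⁆ = 1
          rw [map_commutatorElement, commutatorElement_eq_one_iff_mul_comm]; exact Gen2.mem_cent.1 c)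
        have e2 : ⁅k, g⁆ = 1 := p_elt_eq_one (mem_p_elt (pcore_pgroup _ _) e1)
          (mem_p_elt (pcore_pgroup _ _) (PGrp.commutator_mem_of_normal_left hk g))
        exact mem_map_of_mem f (a.out gM (pcore_sub _ _ hk)
          (Gen2.mem_cent.2 (commutatorElement_eq_one_iff_mul_comm.1 e2))))
    obtain ⟨q, hq, nq, k, nk, pk⟩ := h.exQ
    have pk' : PiElt {p}ᶜ k := pe_ne (fun e : q = p => nq (e ▸ d)) pk
    obtain ⟨z, hz, e⟩ := le (mem_map_of_mem f (a.mem (a.memq nq hq pk) pk'))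
    have w : z⁻¹ * k ∈ piCoreOf {p} M := QuotientGroup.eq.1 e
    refine nk (mem_of_pow_coprime_orderOf (m := orderOf (z⁻¹ * k)) ?_
      (pnat_coprime (mem_p_elt (pcore_pgroup _ _) w) pk'))
    have e3 := pow_orderOf_eq_one (z⁻¹ * k)
    rw [(PGrp.commute_of_mem_center (inv_mem hz) k).mul_pow, inv_pow, inv_mul_eq_one] at e3
    exact e3 ▸ pow_mem hz _
  obtain ⟨⟨_, g, hg, rfl⟩, gen⟩ := cy.exists_generator
  have PM : (P : Subgroup G) ≤ M ⊔ zpowers g := fun w hw => by
    obtain ⟨i, e⟩ := gen ⟨f w, mem_map_of_mem f hw⟩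
    have e' : f (g ^ i) = f w := by rw [map_zpow]; exact congrArg Subtype.val e
    have := mul_mem (mem_sup_right (zpow_mem (mem_zpowers g) i)) (mem_sup_left (T := zpowers g)
      (pcore_sub _ _ (QuotientGroup.eq.1 e' : (g ^ i)⁻¹ * w ∈ piCoreOf {p} M)))
    rwa [mul_inv_cancel_left] at this
  have gM : g ∉ M := fun z => not_dvd_index_of_sylow_le P (PM.trans (sup_le le_rfl (zpowers_le.2 z))) (a.idx ▸ d)
  have e1 := relIndex_mul_index (le_sup_left : M ≤ M ⊔ zpowers g)
  rw [PGrp.relIndex_sup_zpowers hp (nN _ _) gM (k1 g hg), a.idx] at e1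
  by_cases e2 : (M ⊔ zpowers g).index = 1
  · rw [e2, mul_one] at e1; exact e1 ▸ hp
  obtain ⟨q, hq, dq⟩ := Nat.exists_prime_and_dvd e2
  exact absurd (a.uniq h hq hp (e1 ▸ dq.mul_left p) d ▸ dq) (not_dvd_index_of_sylow_le P PM)

theorem Ab.rel [M.Normal] (a : Ab M m) (hp : m.Prime) (hg : g ∉ M) : C1[g].index = (center G).relIndex M := by
  have := Fact.mk hp
  have e1 := relIndex_mul_index (inf_le_right : C1[g] ⊓ M ≤ M)
  have e2 := relIndex_mul_index (inf_le_left : C1[g] ⊓ M ≤ C1[g])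
  have e3 : C1[g] ⊔ M = ⊤ := top_le_iff.1 (PGrp.sup_zpowers_eq_top a.idx hg ▸
    sup_le le_sup_right ((zpowers_le.2 (self_mem_cent g)).trans le_sup_left))
  have e4 : C1[g] ⊓ M = center G := le_antisymm (fun v hv => a.out hg hv.2 hv.1)
    (le_inf (center_le_centralizer _) a.Z)
  rw [inf_relIndex_left, ← relIndex_sup_right, e3, relIndex_top_right, ← e1, e4, mul_comm] at e2
  exact Nat.eq_of_mul_eq_mul_right (Nat.pos_of_ne_zero index_ne_zero_of_finite) e2

theorem Ab.cs (a : Ab M m) (hv : v ∈ M) : C1[v].index = 1 ∨ C1[v].index = m := by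
  by_cases z : v ∈ center G
  exacts [Or.inl (cs_eq_one_iff.2 z), Or.inr (a.eq v hv z ▸ a.idx)]

theorem Ab.relZ [M.Normal] (a : Ab M m) (h : T G m n) : (center G).relIndex M = m * n := by
  obtain ⟨y, hy⟩ := h.ey
  refine (a.rel (a.prime h) fun z => ?_).symm.trans hy
  rcases a.cs z with e | e
  exacts [h.nc (Or.inr hy) (cs_eq_one_iff.1 e), h.ne (hy.symm.trans e)]

theorem hall_rel {H Z : Subgroup G} [Z.Normal] (hH : IsPiHallOf π H M) (hZ : Z ≤ M) :
    partn π (Z.relIndex M) = Z.relIndex H := by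
  refine partn_eq (index_ne_zero_of_finite (H := Z.subgroupOf M)) (relIndex_mul_relIndex Z (H ⊔ Z) M le_sup_right (sup_le hH.le hZ) ▸
    congrArg (· * _) (relIndex_sup_right H Z)) (hH.pi.of_dvd (relIndex_dvd_card _ _))
    (hH.idx.of_dvd (relIndex_dvd_of_le_left _ le_sup_left))

theorem Ab.card_comm (a : Ab M m) {H : Subgroup G} (hH : IsPiHallOf π H M) (hg : g ∉ M) (gN : g ∈ N[H]) :
    #(⁅H, zpowers g⁆ : Subgroup G) = partn π ((center G).relIndex M) := by
  have e := Gen.card_comm_cyclic (abelianS hH.le a.comm) g gN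
  have e4 : H ⊓ C1[g] = center G ⊓ H := le_antisymm (fun v hv => ⟨a.out hg (hH.le hv.1) hv.2, hv.1⟩)
    (le_inf inf_le_right (inf_le_left.trans (center_le_centralizer _)))
  rw [e4, ← card_inf_mul_relIndex (center G) H, mul_comm] at e
  rw [hall_rel hH a.Z]
  exact Nat.eq_of_mul_eq_mul_left Nat.card_pos e

theorem card_modEq_cent [Fact q.Prime] {N P : Subgroup G} (hP : IsPGroup q P)
    (hn : P ≤ N[N]) : #N ≡ #(N ⊓ C[P] : Subgroup G) [MOD q] := by
  let _ : MulAction P N := MulAction.compHom N (inclusion hn)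
  rw [← card_subgroupOf (inf_le_left : N ⊓ centralizer (P : Set G) ≤ N)]
  refine (hP.card_modEq_card_fixedPoints N).trans (by
    rw [Nat.card_congr (Equiv.subtypeEquivRight fun x => ?_)]
    refine ⟨fun h => ⟨x.2, fun g hg => ?_⟩, fun h g => Subtype.ext ?_⟩
    · exact mul_inv_eq_iff_eq_mul.1 (congrArg Subtype.val (h ⟨g, hg⟩))
    · exact mul_inv_eq_iff_eq_mul.2 (h.2 g g.2))

theorem Ab.final [hM : M.Normal] (a : Ab M m) (h : T G m n) : m.Prime ∧ m ∣ n - 1 ∧
    (∃ M : Subgroup G, M.Normal ∧ (M : Set G) = {x : G | C1[x].index = 1 ∨ C1[x].index = m} ∧ M.index = m ∧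
      IsMulCommutative M) ∧ (∃ N : Subgroup G, N.Normal ∧ (Nat.card N).Coprime m ∧ ∃ a : ℕ, N.index = m ^ a) ∧
    ∀ P : Sylow m G, Nat.card (_root_.commutator (P : Subgroup G)) = m := by
  have hp := a.prime h
  have := Fact.mk hp
  have nK := core_normal {m}ᶜ M
  have n0 : n ≠ 0 := by have := h.hn; omega
  have p1 : PiNat {m} m := (pnat_prime hp).2 rfl
  have p2 : PiNat {m}ᶜ n := (p'natE hp).2 (h.nd hp dvd_rfl)
  refine ⟨hp, ?_, ⟨M, hM, Set.ext fun x => ⟨fun hx => a.cs hx, fun hx => by_contra fun z => ?_⟩, a.idx, a.comm⟩,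
    ⟨_, nK, (p'nat_coprime hp).1 (pcore_pgroup _ _), (p_natP hp).1 ?_⟩, fun P => ?_⟩
  · obtain ⟨g, ng, pg⟩ := a.exo hp dvd_rfl
    have e := a.card_comm (a.hall {m}ᶜ) ng (nN _ _)
    rw [a.relZ h, partn_eq (mul_ne_zero hp.ne_zero n0) (mul_comm m n) p2 (by rwa [compl_compl])] at e
    have hz : IsPGroup m (zpowers g) := PiNat.pg (p_elt_zpowers.2 pg)
    have e2 := card_modEq_cent (N := ⁅piCoreOf {m}ᶜ M, zpowers g⁆) hz (commg_normr _ _)
    have e3 := (coprime_abelian_cent_dprod (K := piCoreOf {m}ᶜ M) (A := zpowers g) (norm_of_normal _ _)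
      (pnat_coprime' (pcore_pgroup _ _) (p_elt_zpowers.2 pg)) (abelianS (pcore_sub _ _) a.comm)).inf
    rw [← inf_assoc, inf_eq_left.2 (commg_subl (norm_of_normal _ _))] at e3
    rw [e3, e, card_bot] at e2
    exact (Nat.modEq_iff_dvd' h.hn.le).1 e2.symm
  · have e := (a.rel hp z).trans (a.relZ h)
    rcases hx with e' | e'
    exacts [h.nc (Or.inr e) (cs_eq_one_iff.1 e'), h.ne (e.symm.trans e')]
  · rw [← relIndex_mul_index (pcore_sub {m}ᶜ M), a.idx]
    exact (by simpa using (a.hall {m}ᶜ).idx : PiNat {m} _).mul p1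
  · obtain ⟨g, hg, ng⟩ : ∃ g ∈ (P : Subgroup G), g ∉ M :=
      SetLike.not_le_iff_exists.1 fun l => not_dvd_index_of_sylow_le P l (a.idx ▸ dvd_rfl)
    have hU := Sylow_setI_normal (normal_top M) (sylowIn_top P)
    have gN : g ∈ N[M ⊓ (P : Subgroup G)] := normsI (norm_of_normal M P) le_normalizer hg
    have e := a.card_comm hU ng gN
    rw [a.relZ h, partn_eq (mul_ne_zero hp.ne_zero n0) rfl p1 p2,
      ← Gen.der_abelian_cyclic (abelianS inf_le_left a.comm) g gN] at e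
    have e2 : M ⊓ (P : Subgroup G) ⊔ zpowers g = P := le_antisymm (sup_le inf_le_right (zpowers_le.2 hg)) fun w hw => by
      obtain ⟨v, hv, i, rfl⟩ := (PGrp.mem_sup_zpowers (nN M g)).1
        (PGrp.sup_zpowers_eq_top a.idx ng ▸ mem_top w : w ∈ M ⊔ zpowers g)
      exact mul_mem (mem_sup_left ⟨hv, (mul_mem_cancel_right (zpow_mem hg i)).1 hw⟩)
        (mem_sup_right (zpow_mem (mem_zpowers g) i))
    rw [e2, ← map_subtype_commutator, card_map_of_injective (subtype_injective _)] at e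
    exact e

end Cfsg.Agent.Small.Mmn
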