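import Cfsg.Agent.Small.MmnC

/-! Solvable groups with class sizes `1, m, m n`: some `O_t(G)` with `t ∣ m` is not central. -/

set_option autoImplicit false

namespace Cfsg.Agent.Small.Mmn

open Subgroup Cfsg Cfsg.Agent.BG Cfsg.Agent.Gen2 Cfsg.Agent.FG
open scoped commutatorElement Pointwise

variable {G : Type*} [Group G] [Finite G] {m n p q t : ℕ} {x y s k g v a : G} {B : Subgroup G} {π : Set ℕ}

theorem rel_sup (N H : Subgroup G) [N.Normal] : H.relIndex (N ⊔ H) = H.relIndex N := by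
  have e1 := relIndex_mul_relIndex (H ⊓ N) H (N ⊔ H) inf_le_left le_sup_right
  have e2 := relIndex_mul_relIndex (H ⊓ N) N (N ⊔ H) inf_le_right le_sup_left
  rw [inf_relIndex_right, relIndex_sup_left, ← e1, inf_relIndex_left, mul_comm] at e2
  exact (Nat.eq_of_mul_eq_mul_left (Nat.pos_of_ne_zero (index_ne_zero_of_finite (H := N.subgroupOf H))) e2).symm

/-- the frame: `B = Z(F(G))` -/
structure Fr (B : Subgroup G) (m n : ℕ) : Prop extends T G m n where
  F : B ≤ fittingSubgroup G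
  mem : ∀ x, (∀ q, q.Prime → pCore q G ≤ C1[x]) → x ∈ B
  ab : ∀ b ∈ B, B ≤ C1[b]
  Z : ∀ t, t.Prime → t ∣ m → pCore t G ≤ center G

theorem Fr.core (h : Fr B m n) (hq : q.Prime) (hx : x ∈ B) (px : PiElt {q} x) : x ∈ pCore q G := by
  have := Fact.mk hq
  exact Solv.le_pCore_of_le_fitting (PiNat.pg (p_elt_zpowers.2 px)) ((zpowers_le.2 hx).trans h.F) (mem_zpowers x)

theorem Fr.X (h : Fr B m n) (hx : C1[x].index = 1 ∨ C1[x].index = m) : x ∈ B := h.mem x fun q hq => by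
  by_cases d : q ∣ m
  · exact (h.Z q hq d).trans (center_le_centralizer _)
  have := Fact.mk hq
  obtain ⟨j, e⟩ := IsPGroup.iff_card.1 (Solv.isPGroup_pCore q G)
  refine le_cent_of_coprime ?_
  rcases hx with e' | e' <;> rw [e']
  · exact Nat.coprime_one_right _
  · rw [e]; exact ((Nat.Prime.coprime_iff_not_dvd hq).2 d).pow_left j

theorem Fr.ZB (h : Fr B m n) : center G ≤ B := fun _ hx => h.X (Or.inl (cs_eq_one_iff.2 hx))

theorem Fr.Y (h : Fr B m n) (hg : g ∉ B) : C1[g].index = m * n :=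
  (h.cs g fun z => hg (h.ZB z)).resolve_left fun e => hg (h.X (Or.inr e))

theorem Fr.out (h : Fr B m n) (ns : s ∉ center G) (ps : PiElt (primesOf m) s) : s ∉ B := fun hs =>
  ns (mem_of_parts hs fun r hr d y hy _ py => h.Z r hr (mem_primesOf.1 (ps r hr d)).2 (h.core hr hy py))

theorem Fr.out1 (h : Fr B m n) (hp : p.Prime) (d : p ∣ m) (ns : s ∉ center G) (ps : PiElt {p} s) : s ∉ B :=
  h.out ns (pi_pnat ps (mem_primesOf.2 ⟨hp, d⟩))

theorem Fr.exa (h : Fr B m n) : ∃ q a, q.Prime ∧ ¬ q ∣ m ∧ a ∈ B ∧ PiElt {q} a ∧ C1[a].index = m := by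
  obtain ⟨x, hx⟩ := h.ex
  by_contra! H
  refine h.nc (Or.inl hx) (mem_of_parts (h.X (Or.inr hx)) fun r hr _ y hy zy py => by_contra fun z => ?_)
  exact H r y hr (fun d => h.out1 hr d z py hy) hy py
    (h.eq z (cent_le_cent_of_mem_zpowers zy) (Or.inl hx) ▸ hx)

theorem Fr.le (h : Fr B m n) [hp : Fact p.Prime] (d : p ∣ m) (pa : PiElt {p}ᶜ a) (hg : g ∉ B) (c : g ∈ C1[a]) :
    C1[g] ≤ C1[a] := by
  obtain ⟨s, ns, ps, e⟩ : ∃ s, s ∉ center G ∧ PiElt {p} s ∧ C1[g] = C1[s] := by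
    by_cases z : constt {p} g ∈ center G
    · have e : C1[g] = C1[constt {p}ᶜ g] := by rw [cent1_eq_inf_constt {p}, cent_eq_top_iff.2 z, top_inf_eq]
      obtain ⟨s, cs, ns, ps⟩ := h.exP d (constt {p}ᶜ g)
      have i := e ▸ h.Y hg
      exact ⟨s, ns, ps, e.trans (h.eq (h.nc (Or.inr i)) (h.leY (h.Y (h.out1 hp.out d ns ps)) (mem_cent_comm.1 cs)
        (pnat_coprime ps (p_elt_constt _ _))) (Or.inr i)).symm⟩
    · exact ⟨_, z, p_elt_constt _ _, h.eq z (cent1_le_constt _ _) (Or.inr (h.Y (h.out1 hp.out d z (p_elt_constt _ _))))⟩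
  rw [e]
  exact h.leY (h.Y (h.out1 hp.out d ns ps)) (e ▸ mem_cent_comm.1 c) (pnat_coprime ps pa)

theorem Fr.rel (h : Fr B m n) (ia : C1[a].index = m) (hg : g ∉ B) (l : C1[g] ≤ C1[a]) : C1[g].relIndex C1[a] = n :=
  ((h.toT.rel (h.nc (Or.inl ia)) l).resolve_left fun e => h.ne ((h.Y hg).symm.trans (e ▸ ia))).2.2

theorem Fr.sup [hB : B.Normal] (h : Fr B m n) [hp : Fact p.Prime] (d : p ∣ m) (pa : PiElt {p}ᶜ a) (aB : a ∈ B)
    (ia : C1[a].index = m) (c : s ∈ C1[a]) (ns : s ∉ center G) (ps : PiElt {p} s) : B ⊔ C1[s] = C1[a] := by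
  refine le_antisymm (sup_le (h.ab a aB) (h.le d pa (h.out1 hp.out d ns ps) c)) (subgroupOf_eq_top.1
    (eq_top_of_forall_exists_conj_mem _ fun ⟨g, hg⟩ => ?_))
  by_cases z : g ∈ B
  · exact ⟨1, mem_subgroupOf.2 (mem_sup_left (by simpa using z))⟩
  obtain ⟨P, hP⟩ := Sylow_exists p C1[g]
  have l := h.le d pa z hg
  obtain ⟨u, hu, e⟩ := Sylow_Jsub (pHall_trans_idx hP l (h.rel ia z l ▸ (p'natE hp.out).2 (h.nd hp.out d)))
    (zpowers_le.2 c) (PiNat.pg (p_elt_zpowers.2 ps))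
  have := Gen2.mem_cent.1 (hP.le (e (conj_mem_cj u (mem_zpowers s))))
  refine ⟨⟨u⁻¹, inv_mem hu⟩, mem_subgroupOf.2 (mem_sup_right (Gen2.mem_cent.2 ?_))⟩
  change u⁻¹ * g * u⁻¹⁻¹ * s = s * (u⁻¹ * g * u⁻¹⁻¹)
  calc _ = u⁻¹ * (g * (u * s * u⁻¹)) * u := by group
    _ = _ := by rw [← this]; group

theorem Fr.idx [hB : B.Normal] (h : Fr B m n) : PiNat (primesOf m) B.index := by
  obtain ⟨p, hp, d⟩ := Nat.exists_prime_and_dvd h.hm.ne'
  have := Fact.mk hp
  obtain ⟨q, a, hq, nq, aB, pa, ia⟩ := h.exa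
  have pa' : PiElt {p}ᶜ a := pe_ne (fun e : q = p => nq (e ▸ d)) pa
  obtain ⟨s, c, ns, ps⟩ := h.exP d a
  have e := h.sup d pa' aB ia c ns ps
  have sB := h.out1 hp d ns ps
  have e2 := h.rel ia sB (e ▸ le_sup_right)
  rw [← e, rel_sup] at e2
  rw [← relIndex_mul_index (h.ab a aB), ia, ← e, relIndex_sup_left]
  refine (piNat_relIndex fun r hr nr k hk pk => by_contra fun z => ?_).mul (pnat_pi m)
  have nr' : ¬ r ∣ m := fun d => nr (mem_primesOf.2 ⟨hr, d⟩)
  have := Fact.mk hr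
  have rp : r ≠ p := fun e => nr' (e ▸ d)
  have e3 := h.eq (h.nc (Or.inr (h.Y z))) (h.leY (h.Y sB) hk (pnat_coprime ps (pe_ne rp pk))) (Or.inr (h.Y z))
  have l := pxq (Solv.isPGroup_pCore r G) pk (pe_ne rp.symm ps) hk (nN _ _) (nN _ _) (e3 ▸ inf_le_right)
  refine z (h.ZB (h.central nr' ?_ pk))
  rw [← e2]
  refine (piNat_relIndex (π := {r}ᶜ) fun r' hr' nr y hy py => ?_).not_dvd hr (by simp)
  obtain rfl : r' = r := by simpa using nr
  exact l (h.core hr hy py)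

theorem Fr.X' [hB : B.Normal] (h : Fr B m n) (hb : x ∈ B) (nb : x ∉ center G) : C1[x].index = m :=
  (h.cs x nb).resolve_right fun e => by
    obtain ⟨q, hq, d⟩ := Nat.exists_prime_and_dvd h.hn.ne'
    exact h.nd hq (mem_primesOf.1 (h.idx q hq ((d.mul_left m).trans (e ▸ index_dvd_of_le (h.ab x hb))))).2 d

theorem Fr.inB [hB : B.Normal] (h : Fr B m n) (pk : PiElt (primesOf m)ᶜ k) : k ∈ B :=
  mem_of_piElt (normal_top B) (by rw [relIndex_top_right, compl_compl]; exact h.idx) trivial pk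

theorem Fr.exz [hB : B.Normal] (h : Fr B m n) : ∃ z, z ∉ B ∧ PiElt (primesOf m) z ∧ ∀ g, ⁅z, g⁆ ∈ B := by
  set W := piCore (primesOf m)ᶜ G with hW
  have pW : PiGrp (primesOf m)ᶜ W := Solv.isPiNum_card_piCore _ G
  have WB : W ≤ B := fun k hk => h.inB (mem_p_elt pW hk)
  have iW : PiNat (primesOf m) W.index := relIndex_top_right W ▸ piNat_relIndex fun r _ nr y _ py =>
    Solv.le_piCore_of_le_fitting (p_elt_zpowers.2 (pi_pnat py nr)) ((zpowers_le.2 (h.inB (pi_pnat py nr))).trans h.F)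
      (mem_zpowers y)
  set f := QuotientGroup.mk' W with hf
  have sf : Function.Surjective f := QuotientGroup.mk'_surjective _
  have lift : ∀ y : G ⧸ W, ∃ x, PiElt (primesOf m) x ∧ f x = y := fun y =>
    exists_lift_piElt sf (iW.of_dvd (orderOf_dvd_natCard y))
  obtain ⟨p, hp, hP⟩ := isPGroup_quotient_of_two_sizes (G := G ⧸ W) (m := m) fun y => by
    obtain ⟨s, ps, rfl⟩ := lift y
    by_cases z : s ∈ center G
    · exact Or.inl (Nat.dvd_one.1 (cs_eq_one_iff.2 z ▸ cs_map_dvd f sf s))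
    right
    have e := Solv.centralizer_map_mk' (A := zpowers s) (N := W) (pnat_coprime (p_elt_zpowers.2 ps) pW)
      (Or.inl inferInstance)
    rw [MonoidHom.map_zpowers, C_zpowers, C_zpowers] at e
    rw [e, index_map, MonoidHom.range_eq_top.2 sf, index_top, mul_one, QuotientGroup.ker_mk', sup_comm]
    have e1 := relIndex_mul_index (le_sup_right : C1[s] ≤ W ⊔ C1[s])
    rw [rel_sup, h.Y (h.out z ps), mul_comm] at e1
    have n0 : m * n ≠ 0 := by have := h.hm; have := h.hn; positivity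
    rw [← partn_eq n0 e1.symm (iW.of_dvd (index_dvd_of_le le_sup_left)) (pW.of_dvd (relIndex_dvd_card _ _)),
      partn_eq n0 rfl (pnat_pi m) (coprime_pi'.1 h.co)]
  have := Fact.mk hp
  have := hP.isNilpotent
  have : Group.IsNilpotent (G ⧸ W) := Group.of_quotient_center_nilpotent this
  have := hB.map f sf
  have cm : ∀ g, f g ∈ B.map f → g ∈ B := fun g hg => by
    have : g ∈ (B.map f).comap f := hg
    rwa [comap_map_eq, QuotientGroup.ker_mk', sup_eq_left.2 WB] at this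
  obtain ⟨z, -, nz, cz⟩ := PGrp.exists_central_mod (M := B.map f) (N := ⊤) fun H => by
    obtain ⟨y, hy⟩ := h.ey
    exact h.ne (hy.symm.trans (h.X' (cm y (H trivial)) (h.nc (Or.inr hy))))
  obtain ⟨z, pz, rfl⟩ := lift z
  exact ⟨z, fun H => nz (mem_map_of_mem f H), pz, fun g => cm _ (by rw [map_commutatorElement]; exact cz _)⟩

theorem Fr.false [hB : B.Normal] (h : Fr B m n) : False := by
  obtain ⟨z, nz, pz, cz⟩ := h.exz
  obtain ⟨p, hp, d⟩ := Nat.exists_prime_and_dvd h.hm.ne'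
  have := Fact.mk hp
  obtain ⟨q, a, hq, nq, aB, pa, ia⟩ := h.exa
  obtain ⟨s, c, ns, ps⟩ := h.exP d a
  have := Fact.mk hq
  obtain ⟨b, cb, nb, pb⟩ := exists_nc (E := C1[z]) (center_le_centralizer {s}) (mem_cent_comm.1 c) (h.nc (Or.inl ia)) pa (by
    have e := card_mul_index C1[s]
    rw [← card_mul_index C1[z], h.Y nz, h.Y (h.out1 hp d ns ps)] at e
    rw [Nat.eq_of_mul_eq_mul_right (h.Y nz ▸ cs_pos z) e])
  have bB := h.inB (pe_nd nq pb)
  have key : ∀ a, PiElt (primesOf m)ᶜ a → a ∉ C1[z] → C1[a] = C1[⁅a, z⁆] := fun a pa na => by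
    have aB := h.inB pa
    refine h.eq (fun H => na (comm_of_central (pnat_coprime' pa pz) H)) (fun g hg => ?_)
      (Or.inl (h.X' aB fun H => na (center_le_centralizer _ H)))
    have c1 := Gen2.mem_cent.1 hg
    have c2 := Gen2.mem_cent.1 (h.ab _ (inv_mem (cz g)) (PGrp.commutator_mem_of_normal_left aB z))
    have c3 := Gen2.mem_cent.1 (h.ab _ (inv_mem (cz g)) aB)
    rw [commutatorElement_inv] at c2 c3
    obtain ⟨w, hw⟩ : ∃ w, w = ⁅g, z⁆ := ⟨_, rfl⟩
    rw [← hw] at c2 c3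
    have c4 : g * z = w * z * g := by rw [hw, commutatorElement_def]; group
    have c5 : g * z⁻¹ = z⁻¹ * w⁻¹ * g := by rw [hw, commutatorElement_def]; group
    have c6 : g * a⁻¹ = a⁻¹ * g := (Commute.inv_right c1).eq
    rw [Gen2.mem_cent]
    calc g * ⁅a, z⁆ = (g * a) * z * a⁻¹ * z⁻¹ := by rw [commutatorElement_def]; group
      _ = a * (g * z) * a⁻¹ * z⁻¹ := by rw [c1]; group
      _ = (a * w) * z * (g * a⁻¹) * z⁻¹ := by rw [c4]; group
      _ = w * a * z * a⁻¹ * (g * z⁻¹) := by rw [c6, c3]; group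
      _ = w * ⁅a, z⁆ * w⁻¹ * g := by rw [c5, commutatorElement_def]; group
      _ = _ := by rw [← c2]; group
  obtain ⟨a, pa, na⟩ : ∃ a, PiElt (primesOf m)ᶜ a ∧ a ∉ C1[z] := by
    by_contra! H
    refine nz (h.mem z fun r hr => ?_)
    by_cases d : r ∣ m
    · exact (h.Z r hr d).trans (center_le_centralizer _)
    have := Fact.mk hr
    exact fun y hy => H y (pe_nd d (mem_p_elt (BG.IsPGroup.pi (Solv.isPGroup_pCore r G)) hy))
  have aB := h.inB pa
  have e1 : ⁅a * b, z⁆ = ⁅a, z⁆ := by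
    have := Gen2.mem_cent.1 cb
    calc _ = a * (b * z) * b⁻¹ * a⁻¹ * z⁻¹ := by rw [commutatorElement_def]; group
      _ = _ := by rw [this, commutatorElement_def]; group
  have e2 := key (a * b) (p_eltM (Gen2.mem_cent.1 (h.ab b bB aB)) pa (pe_nd nq pb))
    fun H => na ((mul_mem_cancel_right cb).1 H)
  rw [e1, ← key a pa na] at e2
  have l : C1[a] ≤ C1[b] := fun g hg => by
    have c1 := Gen2.mem_cent.1 hg
    have c2 := Gen2.mem_cent.1 (e2.ge hg)
    rw [← mul_assoc, c1, mul_assoc, mul_assoc] at c2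
    exact Gen2.mem_cent.2 (mul_left_cancel c2)
  exact na (mem_cent_comm.1 ((h.eq nb l (Or.inl (h.X' aB fun H => na (center_le_centralizer _ H)))).ge
    (mem_cent_comm.1 cb)))

theorem T.exab [Group.IsSolvable G] (h : T G m n) : ∃ M : Subgroup G, M.Normal ∧ Ab M m := by
  by_cases H : ∀ t, t.Prime → t ∣ m → pCore t G ≤ center G
  · exfalso
    refine Fr.false (B := C[fittingSubgroup G]) ⟨h, Solv.centralizer_fitting_le, fun x hx => ?_,
      fun b hb a ha => Gen2.mem_cent.2 (hb a (Solv.centralizer_fitting_le ha)), H⟩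
    have : fittingSubgroup G ≤ C1[x] := by
      rw [Solv.fitting_eq_iSup_pCore]; exact iSup_le fun q => hx q q.2
    exact fun a ha => Gen2.mem_cent.1 (this ha)
  · push Not at H
    obtain ⟨t, ht, d, nc⟩ := H
    have := Fact.mk ht
    exact h.ab d nc

end Cfsg.Agent.Small.Mmn
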